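import Mathlib
import Cfsg.Agent.Lib.Exc.Basic
import Cfsg.Agent.Lib.Char.FrobChar
import Cfsg.Agent.Lib.Char.Kernel
import Cfsg.Agent.Lib.Char.Clifford

/-!
# Exceptional characters for an abelian Sylow subgroup all of whose elements have the same
centralizer (Brauer–Leonard)
-/

set_option autoImplicit false

namespace CfsgLib.Exc

open Cfsg CfsgLib.Char
open scoped ComplexConjugate

section Abstract

variable {G : Type*} [Group G] [Fintype G]

/-- A generalized character of degree zero and norm `n` cannot have `n` constituents with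
positive multiplicity. -/
theorem false_of_pos_support {γ : G → ℂ} (hγ : IsGeneralizedCharacter G γ) (h1 : γ 1 = 0) {n : ℕ}
    (hn : classInner γ γ = n) (S : Finset (G → ℂ)) (hS : S.Nonempty) (hnS : n ≤ S.card)
    (h : ∀ χ ∈ S, IsIrrCharacter G χ ∧ ∃ k : ℕ, 0 < k ∧ classInner γ χ = k) : False := by
  classical
  obtain ⟨c, hc, hsum, hnorm⟩ := exists_genChar_eq_sum_int hγ
  let S' : Finset (IrrCharacter G) := S.subtype _
  have hcard : S'.card = S.card := by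
    rw [Finset.card_subtype, Finset.filter_true_of_mem fun χ hχ => (h χ hχ).1]
  have hpos : ∀ χ ∈ S', 1 ≤ c χ := fun χ hχ => by
    obtain ⟨-, k, hk, hk'⟩ := h χ (Finset.mem_subtype.1 hχ)
    have : c χ = k := by rw [hc] at hk'; exact_mod_cast hk'
    omega
  have h2 : ∑ χ, c χ ^ 2 = n := by rw [hn] at hnorm; exact_mod_cast hnorm.symm
  have h3 : (S'.card : ℤ) ≤ ∑ χ ∈ S', c χ ^ 2 := by
    simpa using Finset.card_nsmul_le_sum S' (fun χ => c χ ^ 2) 1
      fun χ hχ => by nlinarith [hpos χ hχ]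
  have h4 : ∑ χ ∈ S'ᶜ, c χ ^ 2 = 0 := by
    have := Finset.sum_add_sum_compl S' fun χ => c χ ^ 2
    have h5 : 0 ≤ ∑ χ ∈ S'ᶜ, c χ ^ 2 := Finset.sum_nonneg fun _ _ => sq_nonneg _
    omega
  have h5 : ∀ χ, 0 ≤ c χ := fun χ => by
    by_cases hχ : χ ∈ S'
    · linarith [hpos χ hχ]
    · have := (Finset.sum_eq_zero_iff_of_nonneg fun _ _ => sq_nonneg _).1 h4 χ
        (Finset.mem_compl.2 hχ)
      rw [pow_eq_zero_iff two_ne_zero] at this
      omega
  choose d hd hd' using fun χ : IrrCharacter G => exists_irr_one_eq_nat χ.2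
  have h6 : ∑ χ, c χ * d χ = 0 := by
    have := congrFun hsum 1
    rw [h1, Finset.sum_apply] at this
    simp only [Pi.smul_apply, smul_eq_mul, hd'] at this
    exact_mod_cast this.symm
  obtain ⟨χ, hχ⟩ : S'.Nonempty := Finset.card_pos.1 (hcard ▸ hS.card_pos)
  have h7 := (Finset.sum_eq_zero_iff_of_nonneg fun ψ _ =>
    mul_nonneg (h5 ψ) (Int.natCast_nonneg _)).1 h6 χ (Finset.mem_univ _)
  have := hpos χ hχ
  have := hd χ
  rcases mul_eq_zero.1 h7 with h | h <;> omega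

theorem eq_of_inner_sub {a b ζ : G → ℂ} (ha : IsIrrCharacter G a) (hb : IsIrrCharacter G b)
    (hζ : IsIrrCharacter G ζ) {k : ℕ} (hk : k ≠ 0) (h : classInner ζ (a - b) = k) : a = ζ := by
  classical
  by_contra h1
  rw [classInner_sub_right, classInner_irr_of_ne hζ ha (Ne.symm h1), classInner_irr hζ hb] at h
  have h2 : (0 : ℤ) - (if ζ = b then 1 else 0) = k := by
    split_ifs at h ⊢ <;> exact_mod_cast h
  split_ifs at h2 <;> omega

theorem false_of_exceptional_family (N : Subgroup G) [Fintype N] (T : Set G) (hT1 : (1 : G) ∉ T)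
    (hTI : ∀ g : G, g ∉ N → ∀ t ∈ T, g * t * g⁻¹ ∈ T → t = 1)
    (X : Finset (N → ℂ)) (hX : ∀ Φ ∈ X, IsIrrCharacter N Φ ∧ Φ ≠ fun _ => 1)
    (hXT : ∀ Φ ∈ X, ∀ Ψ ∈ X, ∀ x : N, (x : G) ∉ T → Φ x = Ψ x)
    {ζ : G → ℂ} (hζ : IsIrrCharacter G ζ) (hζ1 : ζ ≠ fun _ => 1)
    {Φ₀ Φ₁ Φ₂ : N → ℂ} (h₀ : Φ₀ ∈ X) (h₁ : Φ₁ ∈ X) (h₂ : Φ₂ ∈ X) (h12 : Φ₁ ≠ Φ₂)
    (hz₀ : classInner (fun x : N => ζ x) Φ₀ ≠ 0) (hz₁ : classInner (fun x : N => ζ x) Φ₁ = 0)
    (hz₂ : classInner (fun x : N => ζ x) Φ₂ = 0)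
    {γ : N → ℂ} (hγ : IsGeneralizedCharacter N γ) (hγT : ∀ x : N, (x : G) ∉ T → γ x = 0)
    {n : ℕ} (hn : classInner γ γ = n) (hnX : n ≤ X.card) (hγ1 : classInner γ (fun _ => 1) = 1)
    {a : ℕ} (ha : 0 < a) (hγζ : classInner γ (fun x : N => ζ x) = a) {Ψ : N → ℂ} (hΨ : Ψ ≠ Φ₀)
    (hγX : ∀ Φ ∈ X, Φ ≠ Ψ → classInner γ Φ = 0) : False := by
  classical
  have hcl : ∀ Φ ∈ X, IsClassFunction N Φ := fun Φ h => isClassFunction_of_isIrr (hX Φ h).1
  have hv : ∀ Φ ∈ X, ∀ x : N, (x : G) ∉ T → (Φ₀ - Φ) x = 0 := fun Φ h x hx =>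
    sub_eq_zero.2 (hXT _ h₀ _ h x hx)
  have hiso : ∀ {α : N → ℂ}, (∀ x : N, (x : G) ∉ T → α x = 0) → ∀ Φ ∈ X,
      classInner (indFun N α) (indFun N (Φ₀ - Φ)) = classInner α (Φ₀ - Φ) := fun hα Φ h =>
    classInner_indFun_of_ti N T hTI (isClassFunction_sub (hcl _ h₀) (hcl _ h)) hα (hv Φ h)
      (hα 1 hT1)
  have hin : ∀ Φ ∈ X, ∀ Φ' ∈ X, Φ ≠ Φ₀ → Φ' ≠ Φ₀ →
      classInner (indFun N (Φ₀ - Φ)) (indFun N (Φ₀ - Φ')) = if Φ = Φ' then 2 else 1 := by
    intro Φ h Φ' h' hne hne'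
    rw [hiso (hv Φ h) Φ' h', classInner_sub_left, classInner_sub_right, classInner_sub_right,
      classInner_irr_self (hX _ h₀).1, classInner_irr_of_ne (hX _ h₀).1 (hX _ h').1 hne'.symm,
      classInner_irr_of_ne (hX _ h).1 (hX _ h₀).1 hne, classInner_irr (hX _ h).1 (hX _ h').1]
    split_ifs <;> ring
  have hδ : ∀ Φ ∈ X, Φ ≠ Φ₀ → ∃ a b : G → ℂ, IsIrrCharacter G a ∧ IsIrrCharacter G b ∧ a ≠ b ∧
      indFun N (Φ₀ - Φ) = a - b := fun Φ h hne =>
    exists_sub_of_norm_two (isGenChar_indFun N (isGenChar_sub (isGenChar_of_isIrr (hX _ h₀).1)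
      (isGenChar_of_isIrr (hX _ h).1))) (by rw [hin Φ h Φ h hne hne, if_pos rfl])
      (by rw [indFun_one, hv Φ h 1 hT1, mul_zero])
  have hζc := isClassFunction_of_isIrr hζ
  obtain ⟨k, hk⟩ := exists_classInner_eq_nat (isCharacter_restrict N (isCharacter_of_isIrr hζ))
    (isCharacter_of_isIrr (hX _ h₀).1)
  have hk0 : k ≠ 0 := fun h => hz₀ (by rw [hk, h, Nat.cast_zero])
  have hδ' : ∀ Φ ∈ X, classInner (fun x : N => ζ x) Φ = 0 → Φ ≠ Φ₀ ∧ ∃ b : G → ℂ,
      IsIrrCharacter G b ∧ ζ ≠ b ∧ indFun N (Φ₀ - Φ) = ζ - b := fun Φ h hz => by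
    have hne : Φ ≠ Φ₀ := fun e => hz₀ (e ▸ hz)
    obtain ⟨a, b, ha, hb, hab, e⟩ := hδ Φ h hne
    obtain rfl := eq_of_inner_sub ha hb hζ hk0 (by
      rw [← e, classInner_indFun_right N _ hζc, classInner_sub_right, hz, hk, sub_zero])
    exact ⟨hne, b, hb, hab, e⟩
  obtain ⟨hne₁, b₁, hb₁, hζb₁, e₁⟩ := hδ' Φ₁ h₁ hz₁
  obtain ⟨hne₂, b₂, hb₂, hζb₂, e₂⟩ := hδ' Φ₂ h₂ hz₂
  have hall : ∀ Φ ∈ X, Φ ≠ Φ₀ → ∃ b : G → ℂ, IsIrrCharacter G b ∧ ζ ≠ b ∧
      indFun N (Φ₀ - Φ) = ζ - b := by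
    intro Φ h hne
    by_cases hΦ₁ : Φ = Φ₁
    · exact ⟨b₁, hb₁, hζb₁, hΦ₁ ▸ e₁⟩
    by_cases hΦ₂ : Φ = Φ₂
    · exact ⟨b₂, hb₂, hζb₂, hΦ₂ ▸ e₂⟩
    obtain ⟨a, b, ha, hb, hab, e⟩ := hδ Φ h hne
    have x₁ := xor_of_inner_sub_eq_one ha hb hζ hb₁ hab hζb₁ (by
      rw [← e, ← e₁, hin Φ h Φ₁ h₁ hne hne₁, if_neg hΦ₁])
    have x₂ := xor_of_inner_sub_eq_one ha hb hζ hb₂ hab hζb₂ (by
      rw [← e, ← e₂, hin Φ h Φ₂ h₂ hne hne₂, if_neg hΦ₂])
    have x₃ := xor_of_inner_sub_eq_one hζ hb₁ hζ hb₂ hζb₁ hζb₂ (by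
      rw [← e₁, ← e₂, hin Φ₁ h₁ Φ₂ h₂ hne₁ hne₂, if_neg h12])
    obtain rfl : a = ζ := by
      by_contra h'
      have y₁ : b = b₁ := by tauto
      have y₂ : b = b₂ := by tauto
      have y₃ : b₁ ≠ b₂ := by tauto
      exact y₃ (y₁.symm.trans y₂)
    exact ⟨b, hb, hab, e⟩
  choose! β hβ hζβ hβe using hall
  have hβinj : Set.InjOn β ((X.erase Φ₀).erase Ψ) := by
    intro Φ h Φ' h' e
    simp only [Finset.coe_erase, Set.mem_sdiff, Finset.mem_coe, Set.mem_singleton_iff] at h h'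
    by_contra hne
    have := hin Φ h.1.1 Φ' h'.1.1 h.1.2 h'.1.2
    rw [hβe _ h.1.1 h.1.2, hβe _ h'.1.1 h'.1.2, ← e, ← hβe _ h.1.1 h.1.2,
      hin Φ h.1.1 Φ h.1.1 h.1.2 h.1.2, if_pos rfl, if_neg hne] at this
    norm_num at this
  have hγc := isClassFunction_of_isGenChar hγ
  have hΓζ : classInner (indFun N γ) ζ = a := by rw [classInner_indFun_left N _ hζc, hγζ]
  have hβ1 : ∀ Φ ∈ X, Φ ≠ Φ₀ → β Φ ≠ fun _ => 1 := fun Φ h hne e => by
    have := classInner_indFun_left N (Φ₀ - Φ) (isClassFunction_const (G := G) 1)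
    rw [hβe Φ h hne, e, classInner_sub_left, classInner_sub_left,
      classInner_irr_of_ne hζ isIrr_one hζ1, classInner_one_one,
      classInner_irr_of_ne (hX _ h₀).1 isIrr_one (hX _ h₀).2,
      classInner_irr_of_ne (hX _ h).1 isIrr_one (hX _ h).2] at this
    norm_num at this
  refine false_of_pos_support (isGenChar_indFun N hγ) (by rw [indFun_one, hγT 1 hT1, mul_zero])
    ((classInner_indFun_of_ti N T hTI hγc hγT hγT (hγT 1 hT1)).trans hn)
    (insert (fun _ => 1) (insert ζ (((X.erase Φ₀).erase Ψ).image β))) (by simp) ?_ ?_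
  · rw [Finset.card_insert_of_notMem, Finset.card_insert_of_notMem,
      Finset.card_image_of_injOn hβinj]
    · have := Finset.pred_card_le_card_erase (s := X) (a := Φ₀)
      have := Finset.pred_card_le_card_erase (s := X.erase Φ₀) (a := Ψ)
      omega
    · simp only [Finset.mem_image, Finset.mem_erase, not_exists, not_and, and_imp]
      exact fun Φ _ h1 h2 e => hζβ Φ h2 h1 e.symm
    · simp only [Finset.mem_insert, Finset.mem_image, Finset.mem_erase, not_or, not_exists,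
        not_and, and_imp]
      exact ⟨hζ1.symm, fun Φ _ h1 h2 => hβ1 Φ h2 h1⟩
  · intro χ hχ
    simp only [Finset.mem_insert, Finset.mem_image, Finset.mem_erase] at hχ
    rcases hχ with rfl | rfl | ⟨Φ, ⟨h1, h2, h3⟩, rfl⟩
    · exact ⟨isIrr_one, 1, one_pos, by
        rw [classInner_indFun_left N _ (isClassFunction_const 1), hγ1, Nat.cast_one]⟩
    · exact ⟨hζ, a, ha, hΓζ⟩
    · refine ⟨hβ Φ h3 h2, a, ha, ?_⟩
      have := hiso hγT Φ h3
      rw [hβe Φ h3 h2, classInner_sub_right, classInner_sub_right, hΓζ, hγX _ h₀ hΨ.symm,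
        hγX _ h3 h1] at this
      linear_combination -this

end Abstract

section Local

/-- A linear character of a central Hall subgroup extends, trivially on the complement. -/
theorem exists_ext_central {C : Type*} [Group C] [Finite C] (P : Subgroup C)
    (hP : P ≤ Subgroup.center C) (hcop : (Nat.card P).Coprime P.index) (ν : P →* ℂˣ) :
    ∃ l : C →* ℂˣ, (∀ u : P, l u = ν u) ∧ ∀ c, c ^ P.index = 1 → l c = 1 := by
  obtain ⟨k, hk⟩ : ∃ k, ∀ u : P, (u ^ P.index) ^ k = u := by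
    refine ⟨P.index ^ ((Nat.card P).totient - 1), fun u => ?_⟩
    rw [← pow_mul, ← pow_succ', Nat.sub_add_cancel (Nat.totient_pos.2 Nat.card_pos)]
    conv_rhs => rw [← pow_one u]
    exact pow_eq_pow_iff_modEq.2 ((Nat.ModEq.pow_totient hcop.symm).of_dvd (orderOf_dvd_natCard u))
  have key : ∀ (c : C) (j : ℕ) (g₀ : C), g₀⁻¹ * c ^ j * g₀ ∈ P → g₀⁻¹ * c ^ j * g₀ = c ^ j := by
    intro c j g₀ h
    have := Subgroup.mem_center_iff.1 (hP h) g₀
    calc g₀⁻¹ * c ^ j * g₀ = g₀⁻¹ * c ^ j * g₀ * g₀⁻¹ * g₀ := by group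
      _ = g₀ * (g₀⁻¹ * c ^ j * g₀) * g₀⁻¹ := by rw [this]; group
      _ = _ := by group
  refine ⟨MonoidHom.transfer (ν ^ k), fun u => ?_, fun c hc => ?_⟩
  · rw [MonoidHom.transfer_eq_pow _ _ (key u), MonoidHom.pow_apply, ← map_pow]
    exact congrArg ν (Subtype.ext (congrArg Subtype.val (hk u)))
  · rw [MonoidHom.transfer_eq_pow _ _ (key c)]
    exact (congrArg (ν ^ k) (Subtype.ext hc)).trans (map_one _)

variable {N : Type*} [Group N] [Fintype N] {P C : Subgroup N}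

/-- `φ` lies over the linear character `ν` of `P`. -/
def Over (hPC : P ≤ C) (φ : C → ℂ) (ν : P →* ℂˣ) : Prop :=
  ∀ u : P, φ ⟨u, hPC u.2⟩ = φ 1 * ν u

theorem exists_over (hPC : P ≤ C) (hcent : ∀ u ∈ P, ∀ c ∈ C, c * u = u * c) {φ : C → ℂ}
    (hφ : IsIrrCharacter C φ) : ∃ ν : P →* ℂˣ, Over hPC φ ν := by
  obtain ⟨l, hl⟩ := exists_hom_charCenter (irr_one_ne_zero hφ)
  refine ⟨l.comp ((Subgroup.inclusion hPC).codRestrict _ fun u => center_le_charCenter hφ
    (Subgroup.mem_center_iff.2 fun c => Subtype.ext (hcent u u.2 c c.2))), fun u => ?_⟩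
  have := hl ⟨⟨u, hPC u.2⟩, center_le_charCenter hφ
    (Subgroup.mem_center_iff.2 fun c => Subtype.ext (hcent u u.2 c c.2))⟩ 1
  rw [mul_one, mul_comm] at this
  exact this

omit [Fintype N] in
theorem Over.unique {hPC : P ≤ C} {φ : C → ℂ} (hφ : IsIrrCharacter C φ) {ν μ : P →* ℂˣ}
    (h : Over hPC φ ν) (h' : Over hPC φ μ) : ν = μ :=
  MonoidHom.ext fun u => Units.ext (mul_left_cancel₀ (irr_one_ne_zero hφ) ((h u).symm.trans (h' u)))

omit [Fintype N] in
theorem Over.inner_ne_zero [Fintype P] [Fintype C] {hPC : P ≤ C} {φ Θ : C → ℂ}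
    (hφ : IsIrrCharacter C φ) {ν : P →* ℂˣ} (h : Over hPC φ ν) (hΘ : IsCharacter C Θ)
    (hi : classInner Θ φ ≠ 0) :
    classInner (fun u : P => Θ ⟨u, hPC u.2⟩) (fun u => (ν u : ℂ)) ≠ 0 := by
  obtain ⟨Ξ, hΞ, rfl⟩ := exists_eq_add_of_inner_ne_zero hΘ hφ hi
  obtain ⟨k, hk⟩ := exists_classInner_eq_nat (isCharacter_res_le hPC hΞ)
    (isCharacter_of_isIrr (isIrr_unitsHom ν))
  obtain ⟨d, hd, hd'⟩ := exists_irr_one_eq_nat hφ
  have : (fun u : P => (φ + Ξ) ⟨u, hPC u.2⟩) =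
      φ 1 • (fun u => (ν u : ℂ)) + fun u : P => Ξ ⟨u, hPC u.2⟩ := by
    funext u; simp [h u]
  rw [this, classInner_add_left, classInner_smul_left, classInner_irr_self (isIrr_unitsHom ν),
    hk, hd']
  exact_mod_cast (by omega : d * 1 + k ≠ 0)

theorem Over.isIrr_indFun [P.Normal] [C.Normal] [Fintype C] {hPC : P ≤ C}
    (hfpf : ∀ u ∈ P, u ≠ 1 → ∀ g, g * u = u * g → g ∈ C) {φ : C → ℂ}
    (hφ : IsIrrCharacter C φ) {ν : P →* ℂˣ} (h : Over hPC φ ν) (hν : ν ≠ 1) :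
    IsIrrCharacter N (indFun C φ) := by
  refine isIrr_indFun_of_inertia_le C hφ fun g hg => ?_
  by_contra hgC
  refine not_mem_inertia_of_fpf P (g := g) (fun k hk x hx e => ?_) (isIrr_unitsHom ν)
    (fun e => hν (MonoidHom.ext fun u => Units.ext (congrFun e u))) ?_
  · by_contra hx1
    exact hgC ((C.mul_mem_cancel_left (hPC hk)).1 (hfpf x hx hx1 _ e))
  · refine (mem_inertia' P).2 fun u => mul_left_cancel₀ (irr_one_ne_zero hφ) ?_
    rw [← h, ← h]
    exact (mem_inertia' C).1 hg ⟨u, hPC u.2⟩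

theorem exists_over_ne_one [Fintype C] (hPC : P ≤ C) (hcent : ∀ u ∈ P, ∀ c ∈ C, c * u = u * c)
    {Θ : C → ℂ} (hΘ : IsCharacter C Θ) (h : ∃ u : P, Θ ⟨u, hPC u.2⟩ ≠ Θ 1) :
    ∃ (φ : C → ℂ) (ν : P →* ℂˣ), IsIrrCharacter C φ ∧ Over hPC φ ν ∧ ν ≠ 1 ∧
      classInner Θ φ ≠ 0 := by
  by_contra! hc
  obtain ⟨u, hu⟩ := h
  apply hu
  rw [classFun_apply_eq_sum (isClassFunction_of_isCharacter hΘ),
    classFun_apply_eq_sum (isClassFunction_of_isCharacter hΘ) 1]
  refine Finset.sum_congr rfl fun φ _ => ?_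
  obtain ⟨ν, hν⟩ := exists_over hPC hcent φ.2
  by_cases h1 : ν = 1
  · rw [hν u, h1]; simp
  · rw [hc φ ν φ.2 hν h1, zero_mul, zero_mul]

/-- The family of induced characters attached to an irreducible character of `C`. -/
theorem exists_family [P.Normal] [C.Normal] [Fintype C] (hPC : P ≤ C)
    (hcent : ∀ u ∈ P, ∀ c ∈ C, c * u = u * c)
    (hfpf : ∀ u ∈ P, u ≠ 1 → ∀ g, g * u = u * g → g ∈ C)
    (hcop : (Nat.card P).Coprime (P.relIndex C)) {φ₀ : C → ℂ} (hφ₀ : IsIrrCharacter C φ₀)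
    {ν₀ : P →* ℂˣ} (h₀ : Over hPC φ₀ ν₀) :
    ∃ φ : (P →* ℂˣ) → C → ℂ, φ ν₀ = φ₀ ∧ (∀ ν, IsIrrCharacter C (φ ν) ∧ Over hPC (φ ν) ν) ∧
      (∀ ν (c : C), c ^ P.relIndex C = 1 → φ ν c = φ₀ c) ∧
      ∀ [DecidableEq (N → ℂ)] (S : Finset (P →* ℂˣ)), 1 ∉ S →
        S.card ≤ C.index * (S.image fun ν => indFun C (φ ν)).card := by
  classical
  let e := Subgroup.subgroupOfEquivOfLe hPC
  choose l hl hl' using fun ν : P →* ℂˣ => exists_ext_central (P.subgroupOf C)
    (fun u hu => Subgroup.mem_center_iff.2 fun c => Subtype.ext (hcent u hu c c.2))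
    (by rwa [Nat.card_congr e.toEquiv]) (ν.comp e.toMonoidHom)
  let φ : (P →* ℂˣ) → C → ℂ := fun ν => if ν = ν₀ then φ₀ else φ₀ * fun c => (l (ν * ν₀⁻¹) c : ℂ)
  have hφ : ∀ ν, IsIrrCharacter C (φ ν) ∧ Over hPC (φ ν) ν := fun ν => by
    simp only [φ]
    split_ifs with h
    · exact ⟨hφ₀, h ▸ h₀⟩
    · refine ⟨isIrr_mul_of_one_eq_one hφ₀ (isCharacter_of_isIrr (isIrr_unitsHom _)) (by simp),
        fun u => ?_⟩
      have := hl (ν * ν₀⁻¹) ⟨⟨u, hPC u.2⟩, u.2⟩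
      simp only [Pi.mul_apply, h₀ u, map_one, Units.val_one, mul_one]
      rw [this]
      show φ₀ 1 * ν₀ u * ((ν u * (ν₀ u)⁻¹ : ℂˣ) : ℂ) = _
      rw [mul_assoc, ← Units.val_mul, mul_comm (ν u), mul_inv_cancel_left]
  refine ⟨φ, if_pos rfl, hφ, fun ν c hc => ?_, fun S hS => ?_⟩
  · simp only [φ]
    split_ifs with h
    · rfl
    · rw [Pi.mul_apply, hl' _ c hc, Units.val_one, mul_one]
  refine Finset.card_le_mul_card_image S _ fun Φ hΦ => ?_
  obtain ⟨ν, hν, rfl⟩ := Finset.mem_image.1 hΦ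
  have hirr := (hφ ν).2.isIrr_indFun hfpf (hφ ν).1 fun h => hS (h ▸ hν)
  refine le_trans (Finset.card_le_card_of_injOn φ (t := conjSet C (φ ν)) (fun μ hμ => ?_)
    fun μ _ μ' _ h => (hφ μ).2.unique (hφ μ).1 (h ▸ (hφ μ').2)) ?_
  · have h1 : ∀ κ, indFun C (φ κ) = indFun C (φ ν) →
        classInner (fun c : C => indFun C (φ ν) c) (φ κ) ≠ 0 := fun κ hκ => by
      rw [← classInner_indFun_right C _ (isClassFunction_indFun C _), hκ, classInner_irr_self hirr]
      exact one_ne_zero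
    exact (mem_conjSet C).2 (clifford_conj C hirr (hφ ν).1 (hφ μ).1 (h1 ν rfl)
      (h1 μ (Finset.mem_filter.1 hμ).2))
  · rw [card_conjSet]
    exact Subgroup.index_antitone (le_inertia C (isClassFunction_of_isIrr (hφ ν).1))

theorem inner_comp_ne_zero {G A : Type*} [Group G] [Fintype G] [Group A] [Fintype A] (f : A →* G)
    {Θ ζ : G → ℂ} (hΘ : IsCharacter G Θ) (hζ : IsIrrCharacter G ζ) (h : classInner Θ ζ ≠ 0)
    {θ : A → ℂ} (hθ : IsCharacter A θ) (h' : classInner (fun a => ζ (f a)) θ ≠ 0) :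
    classInner (fun a => Θ (f a)) θ ≠ 0 := by
  obtain ⟨Ξ, hΞ, rfl⟩ := exists_eq_add_of_inner_ne_zero hΘ hζ h
  obtain ⟨k, hk⟩ := exists_classInner_eq_nat (isCharacter_comp f hΞ) hθ
  obtain ⟨j, hj⟩ := exists_classInner_eq_nat (isCharacter_comp f (isCharacter_of_isIrr hζ)) hθ
  have h1 : j ≠ 0 := fun e => h' (by rw [hj, e, Nat.cast_zero])
  rw [show (fun a => (ζ + Ξ) (f a)) = (fun a => ζ (f a)) + fun a => Ξ (f a) from rfl,
    classInner_add_left, hk, hj]
  exact_mod_cast (by omega : j + k ≠ 0)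

theorem card_constituents_mul_conj {A : Type*} [Group A] [Fintype A] [IsMulCommutative A]
    {χ : A → ℂ} (hχ : IsCharacter A χ) {x : ℕ} (hx : χ 1 = x) (S : Finset (A →* ℂˣ))
    (hS : ∀ ν ∈ S, ν ≠ 1 ∧ classInner (fun u => χ u * conj (χ u)) (fun u => (ν u : ℂ)) ≠ 0) :
    S.card + x ≤ x * x := by
  classical
  obtain ⟨n, -, hn⟩ := exists_char_eq_sum_nat hχ
  choose h hh using fun ψ : IrrCharacter A =>
    exists_unitsHom_of_one_eq_one (irr_isCharacter ψ) (irr_one_eq_one_of_comm ψ.2)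
  let M := Finset.univ.filter fun ψ => n ψ ≠ 0
  have hM : M.card ≤ x := by
    have h1 := congrFun hn 1
    simp only [hx, Finset.sum_apply, Pi.smul_apply, irr_one_eq_one_of_comm (Subtype.prop _),
      smul_eq_mul, mul_one] at h1
    have h2 : x = ∑ ψ, n ψ := by exact_mod_cast h1
    rw [h2, Finset.card_eq_sum_ones]
    exact (Finset.sum_le_sum fun ψ hψ => Nat.one_le_iff_ne_zero.2 (Finset.mem_filter.1 hψ).2).trans
      (Finset.sum_le_sum_of_subset (Finset.subset_univ _))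
  have h3 : (fun u => χ u * conj (χ u)) = ∑ z : IrrCharacter A × IrrCharacter A,
      ((n z.1 : ℂ) * n z.2) • fun u => ((h z.1 * (h z.2)⁻¹) u : ℂ) := by
    funext u
    rw [← char_inv hχ, hn, Finset.sum_apply, Finset.sum_apply, Finset.sum_apply,
      Finset.sum_mul_sum, ← Fintype.sum_prod_type']
    refine Finset.sum_congr rfl fun z _ => ?_
    simp only [Pi.smul_apply, smul_eq_mul, hh, map_inv, MonoidHom.mul_apply, MonoidHom.inv_apply,
      Units.val_mul]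
    ring
  have h4 : S ⊆ M.offDiag.image fun z => h z.1 * (h z.2)⁻¹ := fun ν hν => by
    obtain ⟨h5, h6⟩ := hS ν hν
    rw [h3, classInner_sum_left] at h6
    obtain ⟨z, -, hz⟩ := Finset.exists_ne_zero_of_sum_ne_zero h6
    rw [classInner_smul_left, mul_ne_zero_iff, mul_ne_zero_iff] at hz
    have h7 : h z.1 * (h z.2)⁻¹ = ν := MonoidHom.ext fun u => Units.ext
      (congrFun (irr_eq_of_classInner_ne_zero (isIrr_unitsHom _) (isIrr_unitsHom _) hz.2) u)
    refine Finset.mem_image.2 ⟨z, Finset.mem_offDiag.2 ⟨?_, ?_, fun e => h5 ?_⟩, h7⟩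
    · simpa [M] using hz.1.1
    · simpa [M] using hz.1.2
    · rw [← h7, e]
      exact MonoidHom.ext fun u => mul_inv_cancel _
  have h8 := (Finset.card_le_card h4).trans Finset.card_image_le
  rw [Finset.offDiag_card] at h8
  have h9 : M.card ≤ M.card * M.card := Nat.le_mul_self _
  obtain ⟨d, rfl⟩ := Nat.exists_eq_add_of_le hM
  have h10 : d ≤ d * d := Nat.le_mul_self _
  have h11 : S.card + M.card ≤ M.card * M.card := by omega
  nlinarith

end Local

/-- The local configuration cannot carry a non-principal constituent `ζ` of small support which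
has the principal character of `C` as a constituent. -/
theorem false_of_small_support {G : Type*} [Group G] [Fintype G] (N : Subgroup G) [Fintype N]
    {P C : Subgroup N} [P.Normal] [C.Normal] [Fintype P] [Fintype C] (hPC : P ≤ C)
    (hcent : ∀ u ∈ P, ∀ c ∈ C, c * u = u * c)
    (hfpf : ∀ u ∈ P, u ≠ 1 → ∀ g, g * u = u * g → g ∈ C)
    (hcop : (Nat.card P).Coprime (P.relIndex C)) (T : Set G)
    (hT : ∀ x : N, (x : G) ∈ T ↔ x ∈ C ∧ x ^ P.relIndex C ≠ 1)
    (hTI : ∀ g : G, g ∉ N → ∀ t ∈ T, g * t * g⁻¹ ∈ T → t = 1)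
    {ζ : G → ℂ} (hζ : IsIrrCharacter G ζ) (hζ1 : ζ ≠ fun _ => 1)
    (hζP : ∃ u : P, ζ (u : N) ≠ ζ 1) (hζC : classInner (fun c : C => ζ (c : N)) (fun _ => 1) ≠ 0)
    (S₀ S : Finset (P →* ℂˣ)) (hS : S₀ ⊆ S) (hS1 : ∀ ν, ν ∈ S ↔ ν ≠ 1)
    (hS₀ : ∀ ν ∈ S₀, classInner (fun u : P => ζ (u : N)) (fun u => (ν u : ℂ)) = 0)
    (hc₀ : C.index < S₀.card) (hc : C.index * C.index < S.card) : False := by
  classical
  have hZ : IsCharacter C fun c : C => ζ (c : N) :=
    isCharacter_restrict C (isCharacter_restrict N (isCharacter_of_isIrr hζ))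
  have hZN := isClassFunction_restrict N (isClassFunction_of_isIrr hζ)
  obtain ⟨φ₀, ν₀, hφ₀, h₀, hν₀, hi₀⟩ := exists_over_ne_one hPC hcent hZ hζP
  obtain ⟨φ, e₀, hφ, hφT, hφc⟩ := exists_family hPC hcent hfpf hcop hφ₀ h₀
  have ho : Over hPC (fun _ => 1) 1 := fun u => by simp
  obtain ⟨l, -, hl, hlT, -⟩ := exists_family hPC hcent hfpf hcop isIrr_one ho
  have hS1' : 1 ∉ S := fun h => (hS1 1).1 h rfl
  have hz : ∀ ν ∈ S₀, ∀ ψ : C → ℂ, IsIrrCharacter C ψ → Over hPC ψ ν →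
      classInner (fun c : C => ζ (c : N)) ψ = 0 := fun ν hν ψ hψ h => by
    by_contra hne
    exact h.inner_ne_zero hψ hZ hne (hS₀ ν hν)
  have hvan : ∀ α β : C → ℂ, (∀ c : C, c ^ P.relIndex C = 1 → α c = β c) →
      ∀ x : N, (x : G) ∉ T → indFun C (α - β) x = 0 := fun α β h x hx =>
    indFun_eq_zero_of_forall C _ fun y hy => sub_eq_zero.2 (h _ (Subtype.ext (by
      have hxC : x ∈ C := by simpa [mul_assoc] using ‹C.Normal›.conj_mem _ hy y⁻¹
      have : x ^ P.relIndex C = 1 := by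
        by_contra h'
        exact hx ((hT x).2 ⟨hxC, h'⟩)
      show (y * x * y⁻¹) ^ _ = 1
      rw [conj_pow, this]; simp)))
  have hind : (fun c : C => indFun C (fun _ => (1 : ℂ)) c) = (C.index : ℂ) • fun _ => 1 := by
    funext c
    rw [indFun_apply_of_normal, natCast_index_eq]
    simp
  have hone : ∀ (ψ : C → ℂ) (ν : P →* ℂˣ), IsIrrCharacter C ψ → Over hPC ψ ν → ν ≠ 1 →
      classInner (fun _ => (1 : ℂ)) ψ = 0 := fun ψ ν hψ h hν =>
    classInner_irr_of_ne isIrr_one hψ fun e => hν (h.unique hψ (e ▸ ho))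
  have hone' : ∀ (ψ : C → ℂ) (ν : P →* ℂˣ), IsIrrCharacter C ψ → Over hPC ψ ν → ν ≠ 1 →
      classInner (indFun C fun _ => (1 : ℂ)) (indFun C ψ) = 0 := fun ψ ν hψ h hν => by
    rw [classInner_indFun_right C _ (isClassFunction_indFun C _), hind, classInner_smul_left,
      hone ψ ν hψ h hν, mul_zero]
  have h2 : 1 < (S₀.image fun ν => indFun C (φ ν)).card := by
    by_contra! h
    have := (hφc S₀ fun h => hS1' (hS h)).trans (Nat.mul_le_mul_left _ h)
    omega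
  obtain ⟨_, h₁, _, h₂, h12⟩ := Finset.one_lt_card.1 h2
  obtain ⟨ν₁, hν₁, rfl⟩ := Finset.mem_image.1 h₁
  obtain ⟨ν₂, hν₂, rfl⟩ := Finset.mem_image.1 h₂
  have hν₁1 := (hS1 _).1 (hS hν₁)
  have hΨ := (hl ν₁).2.isIrr_indFun hfpf (hl ν₁).1 hν₁1
  obtain ⟨a, ha⟩ := exists_classInner_eq_nat hZ isCharacter_one
  have hlc := isCharacter_of_isIrr (hl ν₁).1
  refine false_of_exceptional_family N T (fun h => ((hT 1).1 h).2 (one_pow _)) hTI
    (S.image fun ν => indFun C (φ ν)) ?_ ?_ hζ hζ1 (Φ₀ := indFun C φ₀)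
    (Finset.mem_image.2 ⟨ν₀, (hS1 _).2 hν₀, by rw [e₀]⟩) (Finset.mem_image_of_mem _ (hS hν₁))
    (Finset.mem_image_of_mem _ (hS hν₂)) h12 (by rwa [classInner_indFun_right C _ hZN])
    (by rw [classInner_indFun_right C _ hZN, hz ν₁ hν₁ _ (hφ _).1 (hφ _).2])
    (by rw [classInner_indFun_right C _ hZN, hz ν₂ hν₂ _ (hφ _).1 (hφ _).2])
    (γ := indFun C ((fun _ => 1) - l ν₁))
    (isGenChar_indFun C (isGenChar_sub isGenChar_one (isGenChar_of_isCharacter hlc)))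
    (hvan _ _ fun c hc => (hlT ν₁ c hc).symm) (n := C.index + 1) ?_ ?_ ?_ (a := a)
    (Nat.pos_of_ne_zero fun e => hζC (by rw [ha, e, Nat.cast_zero])) ?_ (Ψ := indFun C (l ν₁))
    (fun e => hi₀ ?_) ?_
  · intro Φ hΦ
    obtain ⟨ν, hν, rfl⟩ := Finset.mem_image.1 hΦ
    refine ⟨(hφ ν).2.isIrr_indFun hfpf (hφ ν).1 ((hS1 _).1 hν), fun e => ?_⟩
    have := hone' _ _ (hφ ν).1 (hφ ν).2 ((hS1 _).1 hν)
    rw [e, classInner_indFun_left C _ (isClassFunction_const 1), classInner_one_one] at this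
    exact one_ne_zero this
  · intro Φ hΦ Ψ hΨ x hx
    obtain ⟨ν, hν, rfl⟩ := Finset.mem_image.1 hΦ
    obtain ⟨μ, hμ, rfl⟩ := Finset.mem_image.1 hΨ
    have := hvan (φ ν) (φ μ) (fun c hc => (hφT ν c hc).trans (hφT μ c hc).symm) x hx
    rwa [indFun_sub, Pi.sub_apply, sub_eq_zero] at this
  · have h3 := hone' _ _ (hl ν₁).1 (hl ν₁).2 hν₁1
    rw [indFun_sub, classInner_sub_left, classInner_sub_right, classInner_sub_right, h3,
      classInner_eq_zero_symm h3, classInner_irr_self hΨ,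
      classInner_indFun_right C _ (isClassFunction_indFun C _), hind, classInner_smul_left,
      classInner_one_one]
    push_cast; ring
  · by_contra! h
    have := (hφc S hS1').trans (Nat.mul_le_mul_left _ (Nat.le_of_lt_succ h))
    omega
  · rw [classInner_indFun_left C _ (isClassFunction_const 1), classInner_sub_left,
      classInner_one_one, classInner_eq_zero_symm (hone _ _ (hl ν₁).1 (hl ν₁).2 hν₁1), sub_zero]
  · rw [classInner_indFun_left C _ hZN, classInner_sub_left,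
      classInner_comm_char isCharacter_one hZ, ha,
      classInner_eq_zero_symm (hz ν₁ hν₁ _ (hl _).1 (hl _).2), sub_zero]
  · rw [← classInner_indFun_right C _ hZN, ← e, classInner_indFun_right C _ hZN,
      hz ν₁ hν₁ _ (hl _).1 (hl _).2]
  · intro Φ hΦ hne
    obtain ⟨ν, hν, rfl⟩ := Finset.mem_image.1 hΦ
    rw [indFun_sub, classInner_sub_left, hone' _ _ (hφ ν).1 (hφ ν).2 ((hS1 _).1 hν),
      classInner_irr_of_ne hΨ ((hφ ν).2.isIrr_indFun hfpf (hφ ν).1 ((hS1 _).1 hν)) hne.symm,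
      sub_zero]

/-- Brauer–Leonard: an irreducible character of small degree is linear, and then the Sylow
subgroup is central in its normalizer. -/
theorem linear_of_small_degree {G : Type*} [Group G] [Finite G] {p : ℕ} [Fact p.Prime]
    (P : Sylow p G) (hstar : ∀ x ∈ (P : Subgroup G), x ≠ 1 →
      Subgroup.centralizer ({x} : Set G) = Subgroup.centralizer ((P : Subgroup G) : Set G))
    (hH : ∀ K : Subgroup G, K.Normal → (P : Subgroup G) ≤ K → K = ⊤) {χ : G → ℂ}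
    (hχ : IsIrrCharacter G χ) (hχ1 : χ ≠ fun _ => 1) {x : ℕ} (hx : χ 1 = x)
    (hdeg : x ^ 2 + 1 < Nat.card P) :
    x = 1 ∧ Subgroup.normalizer ((P : Subgroup G) : Set G) ≤
      Subgroup.centralizer ((P : Subgroup G) : Set G) := by
  classical
  have := Fintype.ofFinite G
  set N := Subgroup.normalizer ((P : Subgroup G) : Set G) with hN
  set Cg := Subgroup.centralizer ((P : Subgroup G) : Set G) with hCg
  let P' := (P : Subgroup G).subgroupOf N
  let C := Cg.subgroupOf N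
  have hPCg : (P : Subgroup G) ≤ Cg := fun u hu => by
    by_cases h1 : u = 1
    · exact h1 ▸ one_mem _
    · exact hstar u hu h1 ▸ Subgroup.mem_centralizer_singleton_iff.2 rfl
  have hPC : P' ≤ C := fun u hu => hPCg hu
  have hcent : ∀ u ∈ P', ∀ c ∈ C, c * u = u * c := fun u hu c hc =>
    Subtype.ext (hc u hu).symm
  have hfpf : ∀ u ∈ P', u ≠ 1 → ∀ g, g * u = u * g → g ∈ C := fun u hu h1 g hg => by
    show (g : G) ∈ Cg
    rw [← hstar u hu fun h => h1 (Subtype.ext h)]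
    exact Subgroup.mem_centralizer_singleton_iff.2 (congrArg Subtype.val hg)
  have hcP : Nat.card P' = Nat.card P :=
    Nat.card_congr (Subgroup.subgroupOfEquivOfLe Subgroup.le_normalizer).toEquiv
  have hm : P'.relIndex C = (P : Subgroup G).relIndex Cg :=
    Subgroup.relIndex_subgroupOf (Subgroup.centralizer_le_normalizer _)
  have hpm : ¬ p ∣ (P : Subgroup G).relIndex Cg := fun h =>
    P.not_dvd_index (h.trans (Subgroup.relIndex_dvd_index_of_le hPCg))
  have hcop : (Nat.card P').Coprime (P'.relIndex C) := by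
    rw [hcP, hm, Sylow.card_eq_multiplicity]
    exact ((Nat.Prime.coprime_iff_not_dvd Fact.out).2 hpm).pow_left _
  have hker : ∀ ζ : G → ℂ, IsIrrCharacter G ζ → ζ ≠ (fun _ => 1) → ∃ u : P', ζ (u : N) ≠ ζ 1 := by
    intro ζ hζ h1
    by_contra! h
    exact h1 (irr_eq_one_of_charKer_eq_top hζ (hH _ (charKer_normal (isClassFunction_of_isIrr hζ))
      fun u hu => (mem_charKer (isCharacter_of_isIrr hζ)).2 (h ⟨⟨u, Subgroup.le_normalizer hu⟩, hu⟩)))
  have hχc := isCharacter_of_isIrr hχ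
  have hχN := isCharacter_restrict N hχc
  have hχC : IsCharacter C fun c : C => χ (c : N) := isCharacter_restrict C hχN
  have hs : C.index ≤ x := by
    obtain ⟨φ₀, ν₀, hφ₀, h₀, hν₀, hi₀⟩ := exists_over_ne_one hPC hcent hχC (hker χ hχ hχ1)
    obtain ⟨Ξ, hΞ, e⟩ := exists_eq_add_of_inner_ne_zero hχN (h₀.isIrr_indFun hfpf hφ₀ hν₀)
      (by rwa [classInner_indFun_right C _ (isClassFunction_of_isCharacter hχN)])
    obtain ⟨d, hd, hd'⟩ := exists_irr_one_eq_nat hφ₀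
    obtain ⟨k, hk⟩ := exists_char_one_eq_nat hΞ
    have h1 := congrFun e 1
    rw [Pi.add_apply, indFun_one, hd', hk, OneMemClass.coe_one, hx] at h1
    have h2 : x = C.index * d + k := by exact_mod_cast h1
    nlinarith
  by_cases hnorm : classInner (fun c : C => χ (c : N)) (fun c : C => χ (c : N)) = 1
  · have hZ := hH _ (charCenter_normal (isClassFunction_of_isIrr hχ)) fun u hu =>
      (mem_charCenter hχc).2 (norm_irr_of_mem_center (isIrr_of_inner_self_eq_one hχC hnorm)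
        (g := ⟨⟨u, Subgroup.le_normalizer hu⟩, hPCg hu⟩)
        (Subgroup.mem_center_iff.2 fun c => Subtype.ext (hcent _ hu _ c.2)))
    have h1 := classInner_self_re χ
    rw [classInner_irr_self hχ, Finset.sum_congr rfl fun g _ => by
      rw [(mem_charCenter hχc).1 (hZ ▸ Subgroup.mem_top g), hx]] at h1
    have h2 : (Nat.card G : ℝ) ≠ 0 := by exact_mod_cast Nat.card_pos.ne'
    simp only [Complex.one_re, Complex.norm_natCast, Finset.sum_const, Finset.card_univ,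
      ← Nat.card_eq_fintype_card, nsmul_eq_mul, inv_mul_cancel_left₀ h2] at h1
    have h3 : x ^ 2 = 1 := by exact_mod_cast h1.symm
    have h4 : x = 1 := by simpa using h3
    have h5 : C.index = 1 := le_antisymm (h4 ▸ hs) (Nat.pos_of_ne_zero C.index_ne_zero_of_finite)
    exact ⟨h4, Subgroup.subgroupOf_eq_top.1 (Subgroup.index_eq_one.1 h5)⟩
  exfalso
  have hΘ : IsCharacter G fun g => χ g * conj (χ g) := isCharacter_mul hχc (isCharacter_conj hχc)
  have hΘ1 : classInner (fun g => χ g * conj (χ g)) (fun _ => 1) = 1 := by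
    rw [classInner_mul_conj_one, classInner_irr_self hχ]
  obtain ⟨ζ, hζ, hζΘ, hζC⟩ := exists_irr_between (N.subtype.comp C.subtype)
    (isClassFunction_sub (isClassFunction_of_isCharacter hΘ) (isClassFunction_const 1))
    (θ := fun _ => 1) (by
      rw [show (fun a : C => ((fun g => χ g * conj (χ g)) - fun _ => 1 : G → ℂ)
        (N.subtype.comp C.subtype a)) = (fun c : C => χ (c : N) * conj (χ (c : N))) - fun _ => 1
        from rfl, classInner_sub_left, classInner_mul_conj_one, classInner_one_one]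
      exact sub_ne_zero.2 hnorm)
  have hζ1 : ζ ≠ fun _ => 1 := fun e => hζΘ (by
    rw [e, classInner_sub_left, hΘ1, classInner_one_one, sub_self])
  rw [classInner_sub_left, classInner_irr_of_ne isIrr_one hζ hζ1.symm, sub_zero] at hζΘ
  have : IsMulCommutative P' := ⟨⟨fun a b => Subtype.ext (hcent _ b.2 _ (hPC a.2))⟩⟩
  have hcard : Nat.card (P' →* ℂˣ) = Nat.card P := by
    let _ : CommGroup P' := { (inferInstance : Group P') with mul_comm := mul_comm' }
    rw [CommGroup.card_monoidHom_of_hasEnoughRootsOfUnity, hcP]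
  have : Finite (P' →* ℂˣ) := Nat.finite_of_card_ne_zero (by rw [hcard]; omega)
  have := Fintype.ofFinite (P' →* ℂˣ)
  have hS : (Finset.univ.erase (1 : P' →* ℂˣ)).card + 1 = Nat.card P := by
    rw [Finset.card_erase_add_one (Finset.mem_univ _), Finset.card_univ,
      ← Nat.card_eq_fintype_card, hcard]
  let Q : (P' →* ℂˣ) → Prop := fun ν =>
    classInner (fun u : P' => χ (u : N) * conj (χ (u : N))) (fun u => (ν u : ℂ)) = 0
  have h1 := card_constituents_mul_conj (isCharacter_restrict P' hχN) hx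
    ((Finset.univ.erase 1).filter fun ν => ¬ Q ν) fun ν hν =>
      ⟨Finset.ne_of_mem_erase (Finset.mem_filter.1 hν).1, (Finset.mem_filter.1 hν).2⟩
  have h2 := Finset.card_filter_add_card_filter_not (s := Finset.univ.erase 1) Q
  have hpow : ∀ c ∈ Cg, c ^ (P : Subgroup G).relIndex Cg ∈ (P : Subgroup G) := fun c hc => by
    have : ((P : Subgroup G).subgroupOf Cg).Normal :=
      Subgroup.normal_subgroupOf_of_le_normalizer (Subgroup.centralizer_le_normalizer _)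
    exact Subgroup.pow_index_mem ((P : Subgroup G).subgroupOf Cg) ⟨c, hc⟩
  refine false_of_small_support N hPC hcent hfpf hcop
    {c | c ∈ Cg ∧ c ^ (P : Subgroup G).relIndex Cg ≠ 1} (fun y => ?_) (fun g hg t ht ht' => ?_)
    hζ hζ1 (hker ζ hζ hζ1) hζC ((Finset.univ.erase 1).filter Q) (Finset.univ.erase 1)
    (Finset.filter_subset _ _) (by simp) (fun ν hν => ?_) (by nlinarith) (by nlinarith)
  · rw [hm, Ne, Subtype.ext_iff]
    rfl
  · refine absurd (Subgroup.mem_normalizer_fintype fun y hy => ?_) hg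
    have h3 : ∀ z ∈ (P : Subgroup G), g * z * g⁻¹ ∈ Cg := fun z hz => by
      rw [← hstar _ (hpow _ ht'.1) ht'.2, Subgroup.mem_centralizer_singleton_iff, conj_pow]
      have := hPCg (hpow t ht.1) z hz
      calc _ = g * (z * t ^ (P : Subgroup G).relIndex Cg) * g⁻¹ := by group
        _ = _ := by rw [this]; group
    obtain ⟨z, hz⟩ := (P.2.powEquiv' hpm).surjective ⟨y, hy⟩
    have h4 : (z : G) ^ (P : Subgroup G).relIndex Cg = y := congrArg Subtype.val hz
    rw [← h4, ← conj_pow]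
    exact hpow _ (h3 z z.2)
  · by_contra hne
    exact inner_comp_ne_zero (N.subtype.comp P'.subtype) hΘ hζ hζΘ
      (isCharacter_of_isIrr (isIrr_unitsHom ν)) hne (Finset.mem_filter.1 hν).2

end CfsgLib.Exc
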