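import Mathlib
import Cfsg.Agent.Lib.Exc.D8Arith

/-!
# Arithmetic for the principal 3-block of a group with a 3-local subgroup `3³ : S₄`

The columns are the values on the classes `3A, 3B, 3C, 6A, 6B, 9A, 9B` and the rational and
irrational parts of the values on the elements of order twelve.
-/

set_option autoImplicit false

namespace CfsgLib.Exc.S4

open Finset

theorem s4_core {η ξ ρ n p q w y : ℚ} (hρ : ρ ≠ 0) (hn : n ≠ 0) (hq : q ≠ 0) (hp : 1 + p ≠ 0)
    (hw : 1 + w ≠ 0) (z0 : η + ξ * w + 4 * (η + ξ) * y - 9 * η * p - 9 * ξ * q = 0)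
    (e3 : η - ξ * w - 3 * η * p + 3 * ξ * q = 0) (e1 : 3 * (η * p + ξ * q) = 2 * ρ)
    (q9 : η ^ 2 + ξ ^ 2 * w - (η + ξ) ^ 2 * y = 0)
    (qs : η ^ 2 - ξ ^ 2 * w + η ^ 2 * p - ξ ^ 2 * q = 0)
    (qb : η ^ 2 + ξ ^ 2 * w + 2 * (η + ξ) ^ 2 * y + 3 * η ^ 2 * p + 3 * ξ ^ 2 * q = 8 * n * ρ ^ 2)
    (s0 : n * (1 + w + 8 * y + 27 * p + 27 * q) = 24) : n = 1 := by
  have hη : η ≠ 0 := by
    rintro rfl
    have hξ : ξ ≠ 0 := by rintro rfl; exact hρ (by linarith)
    have : ξ ^ 2 * q = 0 := by linear_combination (1 / 4 : ℚ) * (ξ * e3 - qs)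
    exact hq ((mul_eq_zero.1 this).resolve_left (pow_ne_zero 2 hξ))
  obtain ⟨k, rfl⟩ : ∃ k, ξ = k * η := ⟨ξ / η, by field_simp⟩
  have z0' : 1 + k * w + 4 * (1 + k) * y - 9 * p - 9 * k * q = 0 :=
    mul_left_cancel₀ hη (by linear_combination z0)
  have e3' : 1 - k * w - 3 * p + 3 * k * q = 0 := mul_left_cancel₀ hη (by linear_combination e3)
  have q9' : 1 + k ^ 2 * w - (1 + k) ^ 2 * y = 0 :=
    mul_left_cancel₀ (pow_ne_zero 2 hη) (by linear_combination q9)
  have qs' : 1 - k ^ 2 * w + p - k ^ 2 * q = 0 :=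
    mul_left_cancel₀ (pow_ne_zero 2 hη) (by linear_combination qs)
  have qb' : 1 + p = 3 * n * (p + k * q) ^ 2 :=
    mul_left_cancel₀ (pow_ne_zero 2 hη) (by
      have : ρ = 3 / 2 * (η * p + k * η * q) := by linarith
      rw [this] at qb
      linear_combination (1 / 6 : ℚ) * qb + (1 / 3 : ℚ) * q9 + (1 / 2 : ℚ) * qs)
  have hk : k ≠ 0 := by rintro rfl; exact hp (by linarith)
  have hk1 : 1 + k ≠ 0 := fun e => by
    obtain rfl : k = -1 := by linarith
    exact hw (by linarith)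
  set D := 13 * k ^ 2 + 10 * k + 1 with hD
  have a1 : 4 * k ^ 2 * q = 1 - k + p * (1 + 3 * k) := by linear_combination k * e3' - qs'
  have a2 : 4 * k ^ 2 * w = 3 + k + p * (3 - 3 * k) := by linear_combination -k * e3' - 3 * qs'
  have a3 : 4 * (1 + k) ^ 2 * y = 7 + k + 3 * p * (1 - k) := by linear_combination a2 - 4 * q9'
  have b1 : D * p = 3 * k ^ 2 + 6 * k - 1 := by
    linear_combination (-2 / 3 : ℚ) * k * (1 + k) * z0' + (1 + k) / 6 * a2 + 2 / 3 * k * a3 -
      3 / 2 * (1 + k) * a1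
  have hD0 : D ≠ 0 := fun e => by
    rw [e, zero_mul] at b1
    have h1 : 3 * D - 13 * (3 * k ^ 2 + 6 * k - 1) = -48 * k + 16 := by rw [hD]; ring
    obtain rfl : k = 1 / 3 := by linarith
    norm_num at b1
  have b2 : k * D * q = -k ^ 2 + 6 * k + 3 :=
    mul_left_cancel₀ (mul_ne_zero four_ne_zero hk) (by
      linear_combination D * a1 + (1 + 3 * k) * b1)
  have b3 : k * D * w = k ^ 2 + 10 * k + 13 :=
    mul_left_cancel₀ (mul_ne_zero four_ne_zero hk) (by
      linear_combination D * a2 + (3 - 3 * k) * b1)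
  have b4 : (1 + k) * D * y = k ^ 2 + 22 * k + 1 :=
    mul_left_cancel₀ (mul_ne_zero four_ne_zero hk1) (by
      linear_combination D * a3 + 3 * (1 - k) * b1)
  have c1 : 3 * n * (k ^ 2 + 6 * k + 1) ^ 2 = 4 * k * (k + 1) * D := by
    have h1 : D * (p + k * q) = 2 * (k ^ 2 + 6 * k + 1) := by linear_combination b1 + b2
    have h2 : D * (1 + p) = 16 * k * (k + 1) := by linear_combination b1
    have h3 : D ^ 2 * (1 + p) = 3 * n * (D * (p + k * q)) ^ 2 := by linear_combination D ^ 2 * qb'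
    rw [h1] at h3
    linear_combination (-1 / 4 : ℚ) * h3 + D / 4 * h2
  have c2 : n * ((k - 1) ^ 2 * (19 * k ^ 2 + 46 * k + 19)) = 0 := by
    linear_combination k * (k + 1) * D / 4 * s0 - 3 / 2 * c1 - n / 4 * ((k + 1) * b3 + 8 * k * b4 +
      27 * k * (k + 1) * b1 + 27 * (k + 1) * b2)
  have c3 : 19 * k ^ 2 + 46 * k + 19 ≠ 0 := fun e => by
    have : IsSquare (168 : ℚ) := ⟨19 * k + 23, by linear_combination -19 * e⟩
    rw [Rat.isSquare_ofNat_iff] at this
    exact absurd this (by decide +kernel)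
  have c4 : k = 1 := by
    have := (mul_eq_zero.1 ((mul_eq_zero.1 c2).resolve_left hn)).resolve_right c3
    linear_combination pow_eq_zero_iff two_ne_zero |>.1 this
  subst c4
  rw [hD] at c1
  linarith

theorem s4_final {s t u u' e₀ e₁ d₀ d₁ d₂ σ τ υ υ' ν₀ ν₁ δ₀ δ₁ δ₂ ρ n : ℚ} (hs : s ≠ 0) (ht : t ≠ 0)
    (hu : u ≠ 0) (hu' : u' ≠ 0) (he₀ : e₀ ≠ 0) (he₁ : e₁ ≠ 0) (hd₀ : d₀ ≠ 0) (hd₁ : d₁ ≠ 0)
    (hρ : ρ ≠ 0) (hn : n ≠ 0) (hs1 : s + 1 ≠ 0) (hu1 : u + 1 ≠ 0)
    (l1 : 1 + s + 2 * t + 3 * u + 3 * u' = e₀ + e₁) (l2 : e₀ + e₁ = d₀ + d₁ + d₂)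
    (l3 : 1 - s + u - u' - e₀ + e₁ = 0) (l4 : 1 + s - t - d₀ - d₁ + 2 * d₂ = 0)
    (l5 : 1 + s - t - d₀ + 2 * d₁ - d₂ = 0)
    (m1 : 1 + σ + 2 * τ + 3 * υ + 3 * υ' = ν₀ + ν₁) (m2 : ν₀ + ν₁ = δ₀ + δ₁ + δ₂)
    (m3 : 1 - σ + υ - υ' - ν₀ + ν₁ = 0) (m4 : 1 + σ - τ - δ₀ - δ₁ + 2 * δ₂ = 0)
    (m5 : 1 + σ - τ - δ₀ + 2 * δ₁ - δ₂ = 0)
    (aba : 1 + 1 / s + 8 / t + 27 / u + 27 / u' + 32 * (1 / d₀ + 1 / d₁ + 1 / d₂) = 36 / n)
    (abb : 1 + 1 / s + 8 / t + 27 / u + 27 / u' - 16 * (1 / d₀ + 1 / d₁ + 1 / d₂) = 18 / n)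
    (vab : 1 + σ / s + 4 * τ / t + 9 * υ / u + 9 * υ' / u' - 8 * (δ₀ / d₀ + δ₁ / d₁ + δ₂ / d₂) = 0)
    (vbc : 1 + σ / s + 4 * τ / t + 9 * υ / u + 9 * υ' / u' - 9 * (ν₀ / e₀ + ν₁ / e₁) -
      2 * (δ₀ / d₀ + δ₁ / d₁ + δ₂ / d₂) = 0)
    (vae : 1 - σ / s + 3 * υ / u - 3 * υ' / u' = 0)
    (vce : 1 - σ / s + 3 * υ / u - 3 * υ' / u' - 3 * ν₀ / e₀ + 3 * ν₁ / e₁ = 0)
    (vbd : 1 + σ / s + 4 * τ / t - 3 * υ / u - 3 * υ' / u' = 8 * ρ)
    (vvb : 1 + σ ^ 2 / s + 2 * τ ^ 2 / t + 3 * υ ^ 2 / u + 3 * υ' ^ 2 / u' -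
      3 * (ν₀ ^ 2 / e₀ + ν₁ ^ 2 / e₁) + 2 * (δ₀ ^ 2 / d₀ + δ₁ ^ 2 / d₁ + δ₂ ^ 2 / d₂) = 8 * n * ρ ^ 2)
    (vvf : 1 + σ ^ 2 / s - τ ^ 2 / t - δ₀ ^ 2 / d₀ - δ₁ ^ 2 / d₁ + 2 * δ₂ ^ 2 / d₂ = 0)
    (vve : 1 - σ ^ 2 / s + υ ^ 2 / u - υ' ^ 2 / u' - ν₀ ^ 2 / e₀ + ν₁ ^ 2 / e₁ = 0) :
    n = 1 ∨ d₀ = 8 * n := by
  obtain rfl : d₁ = d₂ := by linarith
  obtain rfl : δ₁ = δ₂ := by linarith
  obtain ⟨ω, rfl⟩ : ∃ ω, ν₀ = ω * e₀ := ⟨ν₀ / e₀, by field_simp⟩
  obtain ⟨ω', rfl⟩ : ∃ ω', ν₁ = ω' * e₁ := ⟨ν₁ / e₁, by field_simp⟩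
  obtain ⟨a, rfl⟩ : ∃ a, δ₀ = a * d₀ := ⟨δ₀ / d₀, by field_simp⟩
  obtain ⟨b, rfl⟩ : ∃ b, δ₁ = b * d₁ := ⟨δ₁ / d₁, by field_simp⟩
  have c1 : ∀ {x y : ℚ}, y ≠ 0 → x * y / y = x := fun h => mul_div_cancel_right₀ _ h
  have c2 : ∀ {x y : ℚ}, y ≠ 0 → (x * y) ^ 2 / y = x ^ 2 * y := fun h => by field_simp
  simp only [mul_div_assoc] at vab vbc vae vce vbd vvb vvf vve
  simp only [← mul_div_assoc ω, ← mul_div_assoc ω', ← mul_div_assoc a, ← mul_div_assoc b,
    c1 he₀, c1 he₁, c1 hd₀, c1 hd₁, c2 he₀, c2 he₁, c2 hd₀, c2 hd₁] at vab vbc vce vvb vvf vve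
  obtain rfl : ω = ω' := by linarith
  by_cases hd : d₀ = d₁
  · right
    subst hd
    have : 3 / d₀ = 3 / (8 * n) := by linear_combination (aba - abb) / 48
    field_simp at this
    linarith
  left
  have hb : b = ω := by
    have h1 : a + 2 * b = 3 * ω := by linarith
    have h2 : (d₁ - d₀) * (b - ω) = 0 := by
      linear_combination (-1 / 2 : ℚ) * m2 + ω / 2 * l2 - d₀ / 2 * h1
    linarith [(mul_eq_zero.1 h2).resolve_left (sub_ne_zero.2 (Ne.symm hd))]
  subst hb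
  obtain rfl : a = b := by linarith
  obtain ⟨η, rfl⟩ : ∃ η, a = 1 - η := ⟨1 - a, by ring⟩
  obtain ⟨ξ, rfl⟩ : ∃ ξ, σ = ξ + (1 - η) * s := ⟨σ - (1 - η) * s, by ring⟩
  obtain rfl : τ = η + ξ + (1 - η) * t := by linear_combination -m4 + (1 - η) * l4
  obtain rfl : υ = (1 - η) * u - η := by
    linear_combination (m1 - (1 - η) * l1) / 6 + (m3 - (1 - η) * l3) / 2
  obtain rfl : υ' = (1 - η) * u' - ξ := by
    linear_combination (m1 - (1 - η) * l1) / 3
  have is : s * s⁻¹ = 1 := mul_inv_cancel₀ hs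
  have it : t * t⁻¹ = 1 := mul_inv_cancel₀ ht
  have iu : u * u⁻¹ = 1 := mul_inv_cancel₀ hu
  have iu' : u' * u'⁻¹ = 1 := mul_inv_cancel₀ hu'
  have in' : n * n⁻¹ = 1 := mul_inv_cancel₀ hn
  simp only [div_eq_mul_inv] at aba abb vab vae vbd vvb vvf vve
  refine s4_core (η := η) (ξ := ξ) (p := u⁻¹) (q := u'⁻¹) (w := s⁻¹) (y := t⁻¹) hρ hn
    (inv_ne_zero hu') (fun e => hu1 (by linear_combination u * e - iu))
    (fun e => hs1 (by linear_combination s * e - is)) ?_ ?_ ?_ ?_ ?_ ?_ ?_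
  · linear_combination vab - (1 - η) * (is + 4 * it + 9 * iu + 9 * iu')
  · linear_combination vae - (1 - η) * (-is + 3 * iu - 3 * iu')
  · linear_combination (vbd - vab) / 4 + 3 * (1 - η) * (iu + iu')
  · linear_combination vvf - (1 - η) ^ 2 * l4 - ((1 - η) ^ 2 * s + 2 * (1 - η) * ξ) * is +
      ((1 - η) ^ 2 * t + 2 * (1 - η) * (η + ξ)) * it
  · linear_combination vve - (1 - η) ^ 2 * l3 + ((1 - η) ^ 2 * s + 2 * (1 - η) * ξ) * is -
      ((1 - η) ^ 2 * u - 2 * (1 - η) * η) * iu + ((1 - η) ^ 2 * u' - 2 * (1 - η) * ξ) * iu'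
  · linear_combination vvb - (1 - η) ^ 2 * (l1 - 2 * l2) - ((1 - η) ^ 2 * s + 2 * (1 - η) * ξ) * is -
      2 * ((1 - η) ^ 2 * t + 2 * (1 - η) * (η + ξ)) * it -
      3 * ((1 - η) ^ 2 * u - 2 * (1 - η) * η) * iu - 3 * ((1 - η) ^ 2 * u' - 2 * (1 - η) * ξ) * iu'
  · linear_combination n * (aba + 2 * abb) / 3 + 24 * in'



/-- The possible rows of the character table, up to sign. -/
def tyL : List (List ℤ) :=
  [[1, 1, 1, 1, 1, 1, 1, 1, 0],
    [1, 1, 1, 1, -1, 1, 1, -1, 0],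
    [2, 2, 2, 2, 0, -1, -1, 0, 0],
    [3, 3, 3, -1, 1, 0, 0, -1, 0],
    [3, 3, 3, -1, -1, 0, 0, 1, 0],
    [3, 0, -3, -1, 0, 0, 0, -1, 0],
    [3, 0, -3, 1, 0, 0, 0, 0, -1],
    [3, 0, -3, -1, 0, 0, 0, 1, 0],
    [3, 0, -3, 1, 0, 0, 0, 0, 1],
    [0, -3, 3, 0, -1, 0, 0, 0, 0],
    [0, -3, 3, 0, 1, 0, 0, 0, 0],
    [-4, 2, -1, 0, 0, -1, -1, 0, 0],
    [-4, 2, -1, 0, 0, -1, 2, 0, 0],
    [-4, 2, -1, 0, 0, 2, -1, 0, 0],
    [4, 1, -2, 0, 1, -2, 1, 0, 0],
    [-4, -1, 2, 0, -1, -1, 2, 0, 0],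
    [0, 0, 0, -2, 0, 0, 0, 1, -1],
    [0, 0, 0, 2, 0, 0, 0, -1, -1],
    [2, -1, -4, 2, 1, -1, -1, 0, 0],
    [2, -4, -1, 2, 0, -1, -1, 0, 0],
    [-6, 0, -3, 2, 0, 0, 0, 0, 0],
    [-3, 0, -6, 1, 0, 0, 0, 1, 0],
    [1, -2, -5, 1, 0, 1, 1, -1, 0],
    [-3, 0, -6, 1, 0, 0, 0, -1, 0],
    [0, -3, -6, 0, 1, 0, 0, 0, 0],
    [0, -6, -3, 0, 0, 0, 0, 0, 0],
    [-5, 1, -2, -1, 1, 1, 1, -1, 0],
    [-5, 1, -2, -1, -1, 1, 1, 1, 0],
    [-5, -2, 1, -1, 0, 1, 1, 1, 0],
    [-9, 0, 0, -1, 0, 0, 0, 1, 0],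
    [-5, -2, 1, -1, 0, 1, 1, -1, 0],
    [-6, 0, -3, -2, 0, 0, 0, 0, 0],
    [3, -3, 0, -1, -1, 0, 0, 1, 0],
    [-1, -4, 2, -1, 0, -1, -1, 1, 0],
    [-4, -1, 2, 0, 1, -1, -1, 0, 0],
    [3, -3, 0, -1, 1, 0, 0, 1, 0],
    [3, -3, 0, -1, 1, 0, 0, -1, 0],
    [-1, 2, -4, -1, 0, -1, -1, 1, 0],
    [0, 0, 0, 0, 0, 0, 0, 0, 0]]

/-- The possible rows. -/
def ty (k : Fin 39) (j : Fin 9) : ℤ := (tyL.getD k []).getD j 0

/-- The norms of the columns. -/
def gn (j : Fin 9) : ℤ := [108, 54, 81, 12, 6, 9, 9, 6, 2].getD j 0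

/-- Certificates for the solution of the linear system. -/
def certL : List (List ℕ) :=
  [[432, 405082, 405247, 404519, 405654, 404848, 405335, 405741, 405985, 404042, 407607, 406474,
      405994, 405672, 407218, 406490, 409414, 413789, 409417, 406994, 406995, 407968],
    [432, 405082, 402331, 406463, 403710, 404848, 405335, 405741, 405985, 407930, 403719, 406474,
      405994, 405672, 398470, 406490, 409414, 390461, 409417, 406994, 406995, 407968],
    [432, 405568, 403789, 407435, 405654, 404848, 405335, 407199, 405985, 407930, 403719, 406474,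
      405994, 401784, 402844, 391910, 409414, 402125, 409417, 406994, 403107, 407968],
    [432, 404919, 404839, 404678, 405489, 402574, 406949, 405654, 404686, 405659, 405498, 406957,
      406958, 403719, 402100, 404049, 406966, 403728, 407217, 400657, 413788, 399209, 396295,
      401163, 416716, 396332],
    [648, 405081, 406135, 405164, 405732, 402088, 409379, 407194, 405334, 404687, 403554, 402097,
      410846, 399183, 404372, 403563, 402106, 399192, 400658, 411595, 387545, 399219, 422548,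
      418192],
    [432, 404920, 404031, 404761, 405491, 404358, 404035, 405172, 404687, 403311, 404041, 405986,
      402423, 402586, 406965, 404050, 404376, 406969, 411592, 403574, 413782, 400666, 396293,
      409417, 403106, 403107, 402136, 413818, 413828],
    [216, 405081, 405082, 404840, 405246, 404275, 405977, 404682, 405736, 402092, 405255, 406958,
      403719, 404535, 403728, 402844, 407221, 399209, 410884, 409454],
    [1296, 405567, 404191, 401762, 397714, 407921, 412297, 404362, 405659, 409386, 410845, 410846,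
      407932, 406316, 410854, 399193, 411591, 391909, 413780, 391912, 387545, 378799, 440044,
      352592],
    [216, 405081, 405082, 404840, 405246, 404275, 405977, 404682, 405736, 407924, 405255, 406958,
      403719, 404535, 403728, 402844, 407221, 399209, 410884, 409454],
    [432, 404919, 404515, 404678, 405489, 401602, 406949, 405334, 404363, 405498, 408901, 408902,
      401127, 404049, 403078, 401136, 407217, 400657, 413788, 393377, 401162, 401163, 422548,
      396332],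
    [648, 404919, 405082, 404840, 404274, 404275, 402089, 405978, 402820, 405172, 404363, 404283,
      402097, 399182, 408903, 405668, 406479, 410854, 408912, 411592, 398473, 418162, 422537,
      387556, 391948],
    [432, 405081, 404758, 405326, 404517, 406219, 406463, 405978, 405172, 404687, 403797, 404041,
      402098, 403558, 405993, 404050, 406968, 402843, 407218, 403574, 400666, 407957, 400669,
      410882, 410883, 402136, 413828],
    [432, 404919, 404272, 404678, 405489, 400873, 407435, 404034, 404848, 405335, 406227, 405985,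
      405986, 403558, 404049, 405994, 403080, 407217, 402844, 406490, 409414, 396293, 400669,
      406994, 399219, 419632, 396332],
    [432, 404919, 404272, 404678, 405489, 400873, 406463, 404848, 405335, 406227, 405985, 409874,
      401127, 403558, 404049, 405994, 403080, 407217, 402844, 406490, 409414, 396293, 400669,
      406994, 399219, 419632, 396332],
    [432, 405081, 405730, 405326, 404517, 409135, 402575, 405978, 405172, 404687, 403797, 404041,
      400154, 408903, 406474, 405993, 404050, 406968, 402843, 407218, 403574, 400666, 413789,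
      409417, 406994, 406995, 390472, 413828],
    [432, 405081, 405730, 405326, 404517, 409135, 404519, 404034, 405172, 404687, 403797, 404041,
      404042, 406474, 405993, 404050, 406968, 402843, 407218, 403574, 400666, 413789, 409417,
      406994, 406995, 390472, 413828],
    [216, 404919, 404920, 405164, 404760, 405733, 404033, 405330, 404278, 403550, 404769, 403070,
      406311, 405507, 406320, 407218, 402847, 409409, 410873, 399220, 409454],
    [216, 404919, 404920, 405164, 404760, 405733, 404033, 405330, 404278, 406466, 404769, 403070,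
      406311, 405507, 406320, 407218, 402847, 400661, 410873, 399220, 409454],
    [432, 404919, 404272, 404678, 405489, 403789, 404519, 404848, 405335, 406227, 405985, 404042,
      403558, 404049, 405994, 406968, 407217, 411592, 406490, 409414, 402125, 400669, 403106,
      403107, 402136, 396332],
    [432, 405406, 406219, 405491, 405330, 405172, 404687, 402825, 404041, 405986, 406311, 406474,
      404050, 404376, 398470, 400658, 400666, 407957, 409417, 406994, 406995, 407968],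
    [144, 405081, 404517, 404681, 404682, 405759, 406976, 406347, 402154],
    [432, 404919, 405487, 405650, 407434, 404033, 404521, 405334, 404363, 403554, 403069, 403070,
      405988, 403078, 403081, 402843, 409405, 402116, 409408, 396292, 410873, 413791, 393388,
      413818, 413828],
    [432, 404919, 404677, 404678, 405489, 404358, 404040, 402423, 404049, 402432, 407217, 410864,
      396332],
    [1296, 405081, 405163, 405650, 406462, 406950, 406465, 404362, 405659, 409386, 410845, 412791,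
      410848, 406316, 410854, 412800, 410857, 398469, 391909, 387536, 391912],
    [1296, 404838, 404434, 404678, 403545, 404275, 403547, 406950, 400633, 403876, 406631, 405741,
      402097, 402098, 412791, 400642, 406316, 407937, 402106, 406968, 398470, 409406, 391912,
      418162, 431285, 391921, 410882, 410883, 413800, 378826],
    [432, 405081, 404920, 405326, 404517, 406705, 402575, 404358, 405820, 405335, 405255, 405985,
      402098, 406311, 406474, 405993, 405994, 408264, 402843, 411592, 406490, 400666, 407957,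
      409417, 403106, 406995, 390472, 413828],
    [432, 405081, 404839, 405326, 404517, 406462, 402089, 404682, 404526, 401126, 407607, 405993,
      407616, 402843, 409405, 416705, 408939, 387556, 413828],
    [432, 405081, 404839, 405326, 404517, 406462, 403710, 404526, 406958, 403719, 405993, 403728,
      402843, 409405, 399209, 408939, 413828],
    [432, 404919, 405082, 404678, 405489, 403303, 404519, 403710, 405172, 404687, 404769, 404041,
      404042, 403719, 403558, 404049, 404050, 405672, 407217, 398470, 412322, 400666, 402125,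
      400669, 406994, 406995, 419632, 396332],
    [432, 405243, 405082, 405247, 404519, 406626, 403549, 404848, 405335, 405741, 405985, 404042,
      407607, 406474, 405994, 405672, 402843, 407218, 397742, 400660, 409414, 413789, 409417,
      403106, 403107, 396304],
    [1],
    [432, 404920, 406461, 404761, 405491, 404358, 406465, 405172, 404687, 404283, 404041, 405986,
      402423, 403558, 404050, 404376, 409404, 402844, 415238, 409408, 400666, 396293, 400669,
      403106, 403107, 413800, 396332],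
    [1],
    [432, 405406, 406219, 405491, 405330, 405172, 404687, 405741, 404041, 405986, 406311, 403558,
      404050, 404376, 407218, 406490, 400666, 407957, 400669, 406994, 406995, 402136],
    [1],
    [648, 405081, 404677, 405164, 405732, 406462, 406463, 407194, 405334, 404687, 403554, 402097,
      407930, 399183, 400642, 404372, 403563, 402106, 399192, 400658, 411595, 396293, 418165,
      399218, 399219, 413800, 418192],
    [432, 404919, 404677, 404678, 405489, 405330, 406956, 406311, 407932, 404049, 406320, 407217,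
      396283, 407948, 396295, 410884, 396332],
    [1]]

/-- The certificates. -/
def cert (a : Fin 38) : ℤ × List ℕ := (((certL.getD a []).headD 0 : ℕ), (certL.getD a []).tail)

/-- The solution of the linear system. -/
def solL : List (List ℤ) :=
  [[1, 0, 0, 0, 0], [1, 0, 0, -1, 0], [1, 0, 0, -1, 1], [1, 1, -1, -1, 1], [1, 0, 0, -1, 1],
    [1, 0, 0, 0, 0], [1, 0, 0, -1, 1], [1, 0, -1, -1, 0], [1, 0, 0, -1, 1],
    [1, 1, -1, -1, 1], [1, 0, 0, 0, -1], [1, 0, 0, 0, -1], [1, 1, -1, -1, 1],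
    [1, 1, -1, -1, 1], [0, -1, 1, 1, -1], [0, -1, 1, 1, -1], [0, 0, 0, 1, -1],
    [0, 0, 0, 1, -1], [0, 0, -1, 0, 0], [0, 0, 1, 0, 0], [0, 0, 0, 0, 0], [0, -1, 1, 1, -1],
    [0, 0, 0, 0, 0], [0, 0, 0, 0, 0], [0, 1, 0, 0, 0], [0, -1, 0, 1, -1], [0, -1, 0, 1, -1],
    [0, 0, 0, 0, 0], [0, 0, 0, 0, 0], [0, 0, 0, 0, 0], [0, 1, 0, 0, 0], [0, 0, 0, 0, 0],
    [0, 0, 1, 0, 0], [0, 0, 0, 0, 0], [0, 0, 0, 1, 0], [0, 0, 0, 0, 1], [0, 0, 0, 0, 0],
    [0, 0, 0, 0, 1]]

/-- The solution. -/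
def sol (a : Fin 38) (j : ℕ) : ℤ := (solL.getD a []).getD j 0

/-- A sum over a list of triples `j, l, c` encoded as `9 j + l + 81 (c + 5000)`. -/
def trisum (F : Fin 9 → Fin 9 → ℤ) (L : List ℕ) : ℤ :=
  (L.map fun x => (((x / 81 : ℕ) : ℤ) - 5000) * F (Fin.ofNat 9 (x / 9)) (Fin.ofNat 9 x)).sum

theorem cert_ok : ∀ a : Fin 38, (cert a).1 ≠ 0 ∧ 
    trisum (fun j l => if j = l then gn j else 0) (cert a).2 = (cert a).1 * sol a 0 ∧
    ∀ k, trisum (fun j l => ty k j * ty k l) (cert a).2 = (cert a).1 * ((if k = a.castSucc then 1 else 0) -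
      (if k = 30 then sol a 1 else 0) - (if k = 32 then sol a 2 else 0) -
      (if k = 34 then sol a 3 else 0) - if k = 37 then sol a 4 else 0) := by decide +kernel

theorem counts (nn : Fin 39 → ℕ)
    (h : ∀ j l, ∑ k, (nn k : ℤ) * (ty k j * ty k l) = if j = l then gn j else 0) :
    (∀ k : Fin 38, nn k.castSucc = if k < 14 then 1 else 0) ∨
    (nn 35 = 1 ∧ nn 16 = 0 ∧ nn 17 = 0 ∧ nn 29 = 0 ∧ nn 32 = 0 ∧ nn 36 = 0) ∨
    (nn 16 = 1 ∧ nn 17 = 1 ∧ nn 29 = 0 ∧ nn 32 = 0 ∧ nn 35 = 0 ∧ nn 36 = 0) := by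
  have hq : ∀ L, ∑ k, (nn k : ℤ) * trisum (fun j l => ty k j * ty k l) L =
      trisum (fun j l => if j = l then gn j else 0) L := fun L => by
    induction L with
    | nil => simp [trisum]
    | cons x L ih =>
      simp only [trisum, List.map_cons, List.sum_cons] at ih ⊢
      rw [← ih, ← h, mul_sum, ← sum_add_distrib]
      exact sum_congr rfl fun k _ => by ring
  have r : ∀ a : Fin 38, (nn a.castSucc : ℤ) =
      sol a 0 + nn 30 * sol a 1 + nn 32 * sol a 2 + nn 34 * sol a 3 + nn 37 * sol a 4 := fun a => by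
    obtain ⟨h1, h2, h3⟩ := cert_ok a
    have := hq (cert a).2
    simp only [h2, h3, mul_left_comm _ (cert a).1, ← mul_sum] at this
    have := mul_left_cancel₀ h1 this
    simp only [mul_sub, mul_ite, mul_one, mul_zero, sum_sub_distrib, sum_ite_eq', mem_univ,
      if_true] at this
    linarith
  have r1 : (nn 1 : ℤ) = 1 - nn 34 := (r 1).trans (by simp [sol, solL]; ring)
  have r10 : (nn 10 : ℤ) = 1 - nn 37 := (r 10).trans (by simp [sol, solL]; ring)
  have r16 : (nn 16 : ℤ) = nn 34 - nn 37 := (r 16).trans (by simp [sol, solL]; ring)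
  have r17 : (nn 17 : ℤ) = nn 34 - nn 37 := (r 17).trans (by simp [sol, solL]; ring)
  have r18 : (nn 18 : ℤ) = -nn 32 := (r 18).trans (by simp [sol, solL])
  have r25 : (nn 25 : ℤ) = -nn 30 + nn 34 - nn 37 := (r 25).trans (by simp [sol, solL]; ring)
  have r29 : (nn 29 : ℤ) = 0 := (r 29).trans (by simp [sol, solL])
  have r35 : (nn 35 : ℤ) = nn 37 := (r 35).trans (by simp [sol, solL])
  have r36 : (nn 36 : ℤ) = 0 := (r 36).trans (by simp [sol, solL])
  have h32 : nn 32 = 0 := by omega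
  by_cases h34 : nn 34 = 0
  · have h37 : nn 37 = 0 := by omega
    have h30 : nn 30 = 0 := by omega
    refine Or.inl fun k => ?_
    have := r k
    simp only [h30, h32, h34, h37, Nat.cast_zero, zero_mul, add_zero,
      (by decide : ∀ k, sol k 0 = ((if k < 14 then 1 else 0 : ℕ) : ℤ)) k] at this
    exact_mod_cast this
  · omega

/-- The integers of absolute value at most `n`. -/
def rg (n : ℕ) : List ℤ := (List.range (2 * n + 1)).map fun i : ℕ => (i : ℤ) - n

theorem mem_rg {n : ℕ} {x : ℤ} (h : x * x < (n + 1) * (n + 1)) : x ∈ rg n := by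
  have h1 : -(n : ℤ) ≤ x ∧ x ≤ n := by constructor <;> nlinarith
  exact List.mem_map.2 ⟨(x + n).toNat, List.mem_range.2 (by omega), by omega⟩

theorem cand : ∀ A ∈ rg 10, ∀ B ∈ rg 7, ∀ C ∈ rg 9, (A + B - 2 * C) % 9 = 0 →
    (2 * A - B - C) % 9 = 0 → ∀ D ∈ rg 3, (D - A) % 2 = 0 → ∀ Y ∈ rg 1,
    (A - D + 2 * Y) % 4 = 0 → ∀ X ∈ rg 2, (A + D - 2 * X) % 4 = 0 → ∀ E ∈ rg 2, (E - B) % 2 = 0 →
    6 * (A * A) + 12 * (B * B) + 8 * (C * C) + 54 * (D * D) + 108 * (E * E) + 108 * (X * X) +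
      324 * (Y * Y) ≤ 648 → ∀ F ∈ rg 3, (F - C) % 3 = 0 → ∀ F' ∈ rg 3, (F' - C) % 3 = 0 →
    208 * (6 * (A * A) + 12 * (B * B) + 8 * (C * C) + 54 * (D * D) + 108 * (E * E) + 72 * (F * F) +
      72 * (F' * F') + 108 * (X * X) + 324 * (Y * Y)) +
      (6 * A + 12 * B + 8 * C + 54 * D + 108 * E + 72 * F + 72 * F' + 108 * X) ^ 2 ≤ 208 * 648 →
    [A, B, C, D, E, F, F', X, Y] ∈ tyL ∨ [-A, -B, -C, -D, -E, -F, -F', -X, -Y] ∈ tyL := by
  decide +kernel

theorem pnorm_div_le (k : ℕ) : ∀ a b : ℤ, 3 ^ k ∣ a → ¬ 3 ^ (k + 1) ∣ b →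
    padicNorm 3 ((a : ℚ) / b) ≤ 1 := by
  have : Fact (Nat.Prime 3) := ⟨Nat.prime_three⟩
  have base : ∀ a b : ℤ, ¬ 3 ∣ b → padicNorm 3 ((a : ℚ) / b) ≤ 1 := fun a b hb => by
    rw [padicNorm.div, (padicNorm.int_eq_one_iff b).2 (by exact_mod_cast hb), div_one]
    exact padicNorm.of_int _
  induction k with
  | zero => exact fun a b _ hb => base a b (by simpa using hb)
  | succ k ih =>
    intro a b ha hb
    by_cases h3 : 3 ∣ b
    · obtain ⟨b, rfl⟩ := h3
      obtain ⟨a, rfl⟩ := ha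
      have := ih (3 ^ k * a) b (Dvd.intro _ rfl) fun e => hb (by
        rw [pow_succ' _ (k + 1)]; exact mul_dvd_mul_left 3 e)
      convert this using 2
      push_cast
      rw [pow_succ', mul_assoc, mul_div_mul_left _ _ three_ne_zero]
    · exact base a b h3

theorem one_lt_pnorm_div (k : ℕ) : ∀ a b : ℤ, b ≠ 0 → ¬ 3 ^ k ∣ a → 3 ^ k ∣ b →
    1 < padicNorm 3 ((a : ℚ) / b) := by
  have : Fact (Nat.Prime 3) := ⟨Nat.prime_three⟩
  induction k with
  | zero => exact fun a b _ ha _ => absurd (by simp) ha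
  | succ k ih =>
    intro a b hb0 ha hb
    by_cases h3 : 3 ∣ a
    · obtain ⟨a, rfl⟩ := h3
      obtain ⟨b, rfl⟩ := hb
      have := ih a (3 ^ k * b) (fun e => hb0 (by rw [pow_succ', mul_assoc, e, mul_zero]))
        (fun e => ha (by rw [pow_succ']; exact mul_dvd_mul_left 3 e)) (Dvd.intro _ rfl)
      convert this using 2
      push_cast
      rw [pow_succ', mul_assoc, mul_div_mul_left _ _ three_ne_zero]
    · rw [padicNorm.div, (padicNorm.int_eq_one_iff a).2 (by exact_mod_cast h3),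
        one_lt_div (lt_of_le_of_ne (padicNorm.nonneg _)
          (padicNorm.nonzero (by exact_mod_cast hb0)).symm)]
      exact (padicNorm.int_lt_one_iff _).2 (by exact_mod_cast (dvd_pow_self 3 k.succ_ne_zero).trans hb)

theorem pnorm_sum_le {ι : Type*} [Fintype ι] (x : ι → ℚ) (S : Finset ι) {m n : ℤ} (hm : ¬ 3 ∣ m)
    (h : (m : ℚ) * ∑ i, x i = n) (hout : ∀ j, j ∉ S → padicNorm 3 (x j) ≤ 1) :
    padicNorm 3 (∑ i ∈ S, x i) ≤ 1 := by
  classical
  have : Fact (Nat.Prime 3) := ⟨Nat.prime_three⟩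
  have one : padicNorm 3 (m : ℚ) = 1 := (padicNorm.int_eq_one_iff m).2 (by exact_mod_cast hm)
  rw [← sum_add_sum_compl S, mul_add] at h
  have h1 : padicNorm 3 (∑ j ∈ Sᶜ, x j) ≤ 1 :=
    padicNorm.sum_le' (fun j hj => hout j (mem_compl.1 hj)) zero_le_one
  rw [← one_mul (padicNorm 3 _), ← one, ← padicNorm.mul, eq_sub_of_add_eq h, one]
  refine padicNorm.sub.trans (max_le (padicNorm.of_int _) ?_)
  rw [padicNorm.mul, one, one_mul]; exact h1

end CfsgLib.Exc.S4
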