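import Mathlib
import Cfsg.Agent.Lib.Exc.S4Arith

/-!
# The principal 3-block of a group with a 3-local subgroup `3³ : S₄`
-/

set_option autoImplicit false

namespace CfsgLib.Exc.S4

open Finset

/-- The class sizes. -/
def wt (j : Fin 9) : ℤ := [6, 12, 8, 54, 108, 72, 72, 108, 324].getD j 0

theorem row_bound {ι : Type*} [Fintype ι] (V : ι → Fin 9 → ℤ)
    (hG : ∀ j l, ∑ i, V i j * V i l = if j = l then gn j else 0) {i₀ : ι}
    (h0 : ∀ j, V i₀ j = ty 0 j) {i : ι} (hi : i ≠ i₀) :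
    208 * ∑ j, wt j * (V i j * V i j) + (∑ j, wt j * (V i j * ty 0 j)) ^ 2 ≤ 208 * 648 := by
  have key : ∀ α : Fin 9 → ℤ, (∑ j, α j * V i j) * (∑ j, α j * V i j) +
      (∑ j, α j * V i₀ j) * (∑ j, α j * V i₀ j) ≤ ∑ j, α j * α j * gn j := fun α => by
    refine (two_le_sum (fun x => (∑ j, α j * V x j) * ∑ j, α j * V x j)
      (fun x => mul_self_nonneg _) hi).trans (le_of_eq ?_)
    simp only [Finset.sum_mul_sum]
    rw [sum_comm]
    refine sum_congr rfl fun j _ => ?_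
    rw [sum_comm, sum_congr rfl fun l _ => (sum_congr rfl fun x _ =>
      mul_mul_mul_comm (α j) (V x j) (α l) (V x l)).trans (by rw [← mul_sum, hG])]
    simp
  obtain ⟨Q, hQ⟩ : ∃ Q, Q = ∑ j, wt j * (V i j * V i j) := ⟨_, rfl⟩
  obtain ⟨L, hL⟩ : ∃ L, L = ∑ j, wt j * (V i j * ty 0 j) := ⟨_, rfl⟩
  have hT : (440 : ℤ) = ∑ j, wt j * (ty 0 j * ty 0 j) := by decide +kernel
  have hw : ∀ j, wt j * gn j = 648 := by decide +kernel
  have h1 := key fun j => wt j * (208 * V i j + L * ty 0 j)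
  have e1 : ∑ j, wt j * (208 * V i j + L * ty 0 j) * V i j = 208 * Q + L * L := by
    nth_rewrite 3 [hL]
    rw [hQ, mul_sum, mul_sum, ← sum_add_distrib]
    exact sum_congr rfl fun j _ => by ring
  have e2 : ∑ j, wt j * (208 * V i j + L * ty 0 j) * V i₀ j = 208 * L + L * 440 := by
    nth_rewrite 2 [hL]
    rw [hT, mul_sum, mul_sum, ← sum_add_distrib]
    exact sum_congr rfl fun j _ => by rw [h0]; ring
  have e3 : ∑ j, wt j * (208 * V i j + L * ty 0 j) * (wt j * (208 * V i j + L * ty 0 j)) * gn j =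
      648 * 208 ^ 2 * Q + 648 * 416 * L * L + 648 * L ^ 2 * 440 := by
    nth_rewrite 4 [hL]
    rw [hT, hQ, mul_sum, mul_sum, mul_sum, ← sum_add_distrib, ← sum_add_distrib]
    exact sum_congr rfl fun j _ => by
      linear_combination wt j * (208 * V i j + L * ty 0 j) ^ 2 * hw j
  rw [e1, e2, e3] at h1
  rw [← hQ, ← hL]
  by_contra! hc
  nlinarith

theorem exists_type {ι : Type*} [Fintype ι] (V : ι → Fin 9 → ℤ)
    (hG : ∀ j l, ∑ i, V i j * V i l = if j = l then gn j else 0) {i₀ : ι}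
    (h0 : ∀ j, V i₀ j = ty 0 j) (i : ι) (c1 : (V i 0 + V i 1 - 2 * V i 2) % 9 = 0)
    (c2 : (2 * V i 0 - V i 1 - V i 2) % 9 = 0) (c3 : (V i 3 - V i 0) % 2 = 0)
    (c4 : (V i 0 - V i 3 + 2 * V i 8) % 4 = 0) (c5 : (V i 0 + V i 3 - 2 * V i 7) % 4 = 0)
    (c6 : (V i 4 - V i 1) % 2 = 0) (c7 : (V i 5 - V i 2) % 3 = 0) (c8 : (V i 6 - V i 2) % 3 = 0) :
    ∃ (k : Fin 39) (e : ℤ), (e = 1 ∨ e = -1) ∧ (i = i₀ → e = 1) ∧ ∀ j, e * V i j = ty k j := by
  by_cases hi : i = i₀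
  · exact ⟨0, 1, Or.inl rfl, fun _ => rfl, fun j => by rw [hi, h0, one_mul]⟩
  have h3 := row_bound V hG h0 hi
  have s9 : ∀ f : Fin 9 → ℤ, ∑ j, f j = f 0 + f 1 + f 2 + f 3 + f 4 + f 5 + f 6 + f 7 + f 8 :=
    fun f => by simp only [Fin.sum_univ_succ, Fin.sum_univ_zero]; simp only [add_assoc, add_zero]; rfl
  rw [s9, s9] at h3
  simp only [show wt 0 = 6 from rfl, show wt 1 = 12 from rfl, show wt 2 = 8 from rfl,
    show wt 3 = 54 from rfl, show wt 4 = 108 from rfl, show wt 5 = 72 from rfl,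
    show wt 6 = 72 from rfl, show wt 7 = 108 from rfl, show wt 8 = 324 from rfl,
    show ty 0 0 = 1 from rfl, show ty 0 1 = 1 from rfl, show ty 0 2 = 1 from rfl,
    show ty 0 3 = 1 from rfl, show ty 0 4 = 1 from rfl, show ty 0 5 = 1 from rfl,
    show ty 0 6 = 1 from rfl, show ty 0 7 = 1 from rfl, show ty 0 8 = 0 from rfl, mul_one,
    mul_zero, add_zero] at h3
  have hV : ∀ j : Fin 9, V i j =
      [V i 0, V i 1, V i 2, V i 3, V i 4, V i 5, V i 6, V i 7, V i 8].getD j 0 := fun j => by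
    fin_cases j <;> rfl
  generalize V i 0 = A at c1 c2 c3 c4 c5 h3 hV
  generalize V i 1 = B at c1 c2 c6 h3 hV
  generalize V i 2 = C at c1 c2 c7 c8 h3 hV
  generalize V i 3 = D at c3 c4 c5 h3 hV
  generalize V i 4 = E at c6 h3 hV
  generalize V i 5 = F at c7 h3 hV
  generalize V i 6 = F' at c8 h3 hV
  generalize V i 7 = X at c5 h3 hV
  generalize V i 8 = Y at c4 h3 hV
  have h4 := le_trans (le_add_of_nonneg_right (sq_nonneg _)) h3
  have := mul_self_nonneg A; have := mul_self_nonneg B; have := mul_self_nonneg C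
  have := mul_self_nonneg D; have := mul_self_nonneg E; have := mul_self_nonneg F
  have := mul_self_nonneg F'; have := mul_self_nonneg X; have := mul_self_nonneg Y
  have h5 := cand A (mem_rg (by omega)) B (mem_rg (by omega)) C (mem_rg (by omega)) c1 c2
    D (mem_rg (by omega)) c3 Y (mem_rg (by omega)) c4 X (mem_rg (by omega)) c5 E (mem_rg (by omega))
    c6 (by omega) F (mem_rg (by omega)) c7 F' (mem_rg (by omega)) c8 h3
  have h6 : ∀ l ∈ tyL, ∃ k : Fin 39, ∀ j : Fin 9, ty k j = l.getD j 0 := by decide +kernel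
  rcases h5 with h5 | h5 <;> obtain ⟨k, hk⟩ := h6 _ h5
  · exact ⟨k, 1, Or.inl rfl, fun _ => rfl, fun j => by rw [hk, hV, one_mul]⟩
  · exact ⟨k, -1, Or.inr rfl, fun e => absurd e hi, fun j => by
      rw [hk, hV]; fin_cases j <;> exact neg_one_mul _⟩

/-- The sum in the class constant formula. -/
def tri {ι : Type*} [Fintype ι] (d X Y Z : ι → ℤ) : ℚ := ∑ i, (X i * Y i * Z i : ℚ) / d i

theorem standard {ι : Type*} [Fintype ι] (k : ι → Fin 39) (d : ι → ℤ) (hd : ∀ i, d i ≠ 0)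
    (hG : ∀ j l, ∑ i, ty (k i) j * ty (k i) l = if j = l then gn j else 0)
    (c27 : ∀ i, 27 ∣ d i + (6 * ty (k i) 0 + 12 * ty (k i) 1 + 8 * ty (k i) 2))
    (hdV : ∑ i, d i * ty (k i) 8 = 0) {n N N' : ℤ} (hn : ¬ 3 ∣ n)
    (h1 : n * tri d (fun i => ty (k i) 0) (fun i => ty (k i) 4) (fun i => ty (k i) 4) = N)
    (h2 : 9 * n * tri d (fun i => ty (k i) 3) (fun i => ty (k i) 3) (fun i => ty (k i) 3) = N') :
    ∃ j : Fin 14 → ι, Function.Injective j ∧ (∀ a, k (j a) = a.castLE (by norm_num)) ∧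
      ∀ i, i ∉ Set.range j → k i = 38 := by
  classical
  have : Fact (Nat.Prime 3) := ⟨Nat.prime_three⟩
  set nn : Fin 39 → ℕ := fun a => (univ.filter fun i => k i = a).card with hnn
  have nz : ∀ {a}, nn a = 0 → ∀ i, k i ≠ a := fun h i e =>
    (card_eq_zero.1 h ▸ notMem_empty i) (mem_filter.2 ⟨mem_univ i, e⟩)
  have one : ∀ {a}, nn a = 1 → ∃ i, ∀ x, k x = a ↔ x = i := fun h => by
    obtain ⟨i, hi⟩ := card_eq_one.1 h
    exact ⟨i, fun x => by simpa using congrArg (x ∈ ·) hi⟩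
  have bd : ∀ (i) (a : ℤ) (j : ℕ), j ≤ 2 → 3 ^ j ∣ a →
      ¬ 3 ^ (j + 1) ∣ 6 * ty (k i) 0 + 12 * ty (k i) 1 + 8 * ty (k i) 2 →
      padicNorm 3 ((a : ℚ) / d i) ≤ 1 := fun i a j hj ha hb => pnorm_div_le j _ _ ha fun e =>
    hb ((dvd_add_right e).1 ((pow_dvd_pow 3 (by omega : j + 1 ≤ 3)).trans (c27 i)))
  rcases counts nn (fun j l => by
    rw [← hG, sum_fiber k id Function.injective_id (fun i => ⟨k i, rfl⟩) fun a => ty a j * ty a l]
    rfl) with h | ⟨h35, -, -, -, h32, h36⟩ | ⟨h16, h17, h29, -⟩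
  · choose j hj using fun a : Fin 14 => one (a := a.castLE (by norm_num))
      ((h (a.castLE (by norm_num))).trans (if_pos a.2))
    refine ⟨j, fun a b e => Fin.castLE_injective (by norm_num : 14 ≤ 39)
      (((hj a _).2 rfl).symm.trans ((hj b _).2 e)), fun a => (hj a _).2 rfl, fun i hi => ?_⟩
    by_contra h38
    obtain ⟨b, hb⟩ := Fin.exists_castSucc_eq.2 h38
    by_cases hb' : b < 14
    · exact hi ⟨⟨b, hb'⟩, ((hj ⟨b, hb'⟩ i).1 hb.symm).symm⟩
    · exact nz ((h b).trans (if_neg hb')) i hb.symm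
  · obtain ⟨i, hi⟩ := one h35
    have h3 := pnorm_sum_le (fun i => ((ty (k i) 0 * ty (k i) 4 * ty (k i) 4 : ℤ) : ℚ) / d i) {i} hn
      (n := N) (by simpa [tri] using h1) fun x hx => by
        rcases (by decide +kernel : ∀ a : Fin 39, a ≠ 32 → a ≠ 35 → a ≠ 36 →
          ty a 0 * ty a 4 * ty a 4 = 0 ∨ ∃ j ≤ 2, 3 ^ j ∣ ty a 0 * ty a 4 * ty a 4 ∧
          ¬ 3 ^ (j + 1) ∣ 6 * ty a 0 + 12 * ty a 1 + 8 * ty a 2) (k x) (nz h32 x)
          (fun e => hx (mem_singleton.2 ((hi x).1 e))) (nz h36 x) with e | ⟨j, a, b, c⟩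
        · simp [e]
        · exact bd x _ j a b c
    have h4 := c27 i
    rw [sum_singleton, (hi i).2 rfl] at h3
    rw [(hi i).2 rfl, show 6 * ty 35 0 + 12 * ty 35 1 + 8 * ty 35 2 = -18 from rfl] at h4
    exact absurd (one_lt_pnorm_div 2 _ _ (hd i) (by decide) (by omega)) (not_lt.2 h3)
  · obtain ⟨i, hi⟩ := one h16
    obtain ⟨i', hi'⟩ := one h17
    have e1 := (hi i).2 rfl
    have e2 := (hi' i').2 rfl
    have hne : i ≠ i' := fun e => by rw [e, e2] at e1; exact absurd e1 (by decide)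
    have h3 := pnorm_sum_le (fun i => ((9 * (ty (k i) 3 * ty (k i) 3 * ty (k i) 3) : ℤ) : ℚ) / d i)
      {i, i'} hn (n := N') (by
        rw [← h2, tri, mul_comm 9, mul_assoc, mul_sum _ _ 9]
        exact congrArg _ (sum_congr rfl fun x _ => by push_cast; ring)) fun x hx => by
        rcases (by decide +kernel : ∀ a : Fin 39, a ≠ 16 → a ≠ 17 → a ≠ 29 →
          ty a 3 = 0 ∨ ¬ 3 ^ (2 + 1) ∣ 6 * ty a 0 + 12 * ty a 1 + 8 * ty a 2) (k x)
          (fun e => hx (by simp [(hi x).1 e])) (fun e => hx (by simp [(hi' x).1 e])) (nz h29 x)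
          with e | c
        · simp [e]
        · exact bd x _ 2 le_rfl (Dvd.intro _ rfl) c
    have h5 : ∀ x ∈ univ, x ∉ ({i, i'} : Finset ι) → ty (k x) 8 = 0 := fun x _ hx => by
      simp only [mem_insert, mem_singleton, not_or] at hx
      have := three_le_sum (fun x => ty (k x) 8 * ty (k x) 8) (fun x => mul_self_nonneg _) hne
        (Ne.symm hx.1) (Ne.symm hx.2)
      rw [hG, e1, e2, show ty 16 8 = -1 from rfl, show ty 17 8 = -1 from rfl, if_pos rfl,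
        show gn 8 = 2 from rfl] at this
      exact mul_self_eq_zero.1 (le_antisymm (by linarith) (mul_self_nonneg _))
    rw [← sum_subset (subset_univ {i, i'}) fun x h hx => by rw [h5 x h hx, mul_zero], sum_pair hne,
      e1, e2, show ty 16 8 = -1 from rfl, show ty 17 8 = -1 from rfl] at hdV
    have h4 := c27 i
    rw [sum_pair hne, e1, e2, show d i' = -d i by linarith, show ty 16 3 = -2 from rfl,
      show ty 17 3 = 2 from rfl, show ((9 * (-2 * -2 * -2) : ℤ) : ℚ) / d i +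
        ((9 * (2 * 2 * 2) : ℤ) : ℚ) / (-d i : ℤ) = ((-144 : ℤ) : ℚ) / d i by push_cast; ring] at h3
    rw [e1, show 6 * ty 16 0 + 12 * ty 16 1 + 8 * ty 16 2 = 0 from rfl] at h4
    exact absurd (one_lt_pnorm_div 3 _ _ (hd i) (by decide) (by omega)) (not_lt.2 h3)

theorem s4_signed {ι : Type*} [Fintype ι] (k : ι → Fin 39) (d T : ι → ℤ) (V : Fin 9 → ι → ℤ)
    (hV : ∀ j i, V j i = ty (k i) j) (hd : ∀ i, d i ≠ 0) {i₀ : ι} (k0 : k i₀ = 0) (d0 : d i₀ = 1)
    (T0 : T i₀ = 1) (hG : ∀ j l, ∑ i, V j i * V l i = if j = l then gn j else 0)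
    (c27 : ∀ i, 27 ∣ d i + (6 * V 0 i + 12 * V 1 i + 8 * V 2 i))
    (hdV : ∀ j, ∑ i, d i * V j i = 0) (hTV : ∀ j, ∑ i, T i * V j i = 0) {n N N' : ℤ}
    (hn0 : 0 < n) (hn : n % 27 = 1) (hdd : ∑ i, d i * d i = 648 * n)
    (h1 : n * tri d (V 0) (V 4) (V 4) = N) (h2 : 9 * n * tri d (V 3) (V 3) (V 3) = N')
    {ρ : ℚ} (hρ : ρ ≠ 0) (aba : tri d (V 0) (V 1) (V 0) = 36 / n)
    (abb : tri d (V 0) (V 1) (V 1) = 18 / n) (vab : tri d T (V 0) (V 1) = 0)
    (vbc : tri d T (V 1) (V 2) = 0) (vae : tri d T (V 0) (V 4) = 0) (vce : tri d T (V 2) (V 4) = 0)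
    (vbd : tri d T (V 1) (V 3) = 8 * ρ) (vvb : tri d T T (V 1) = 8 * n * ρ ^ 2)
    (vvf : tri d T T (V 5) = 0) (vve : tri d T T (V 4) = 0) : n = 1 := by
  obtain rfl : V = fun j i => ty (k i) j := funext₂ hV
  obtain ⟨j, hj, hk, hz⟩ := standard k d hd hG c27 (hdV 8) (by omega) h1 h2
  have z : ∀ l, ty 38 l = 0 := by decide +kernel
  have red : ∀ {M : Type} [AddCommMonoid M] (F : ι → M), (∀ i, k i = 38 → F i = 0) →
      ∑ i, F i = F (j 0) + F (j 1) + F (j 2) + F (j 3) + F (j 4) + F (j 5) + F (j 6) + F (j 7) +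
        F (j 8) + F (j 9) + F (j 10) + F (j 11) + F (j 12) + F (j 13) := fun F hF => by
    rw [← Fintype.sum_of_injective j hj _ F (fun i hi => hF i (hz i hi)) fun _ => rfl]
    simp only [Fin.sum_univ_succ, Fin.sum_univ_zero, add_assoc, add_zero]; rfl
  have j0 : j 0 = i₀ := by
    by_contra h
    obtain ⟨a, rfl⟩ : i₀ ∈ Set.range j := by
      by_contra h'; rw [hz _ h'] at k0; exact absurd k0 (by decide)
    exact h (congrArg j (Fin.castLE_injective (by norm_num : 14 ≤ 39) ((hk a).symm.trans k0).symm))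
  have lin : ∀ (X : ι → ℤ) (l), ∑ i, X i * ty (k i) l = 0 → (X (j 0) * ty 0 l + X (j 1) * ty 1 l +
      X (j 2) * ty 2 l + X (j 3) * ty 3 l + X (j 4) * ty 4 l + X (j 5) * ty 5 l + X (j 6) * ty 6 l +
      X (j 7) * ty 7 l + X (j 8) * ty 8 l + X (j 9) * ty 9 l + X (j 10) * ty 10 l +
      X (j 11) * ty 11 l + X (j 12) * ty 12 l + X (j 13) * ty 13 l : ℚ) = 0 := fun X l h => by
    rw [red _ fun i hi => by rw [hi, z, mul_zero]] at h
    simp only [hk] at h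
    exact_mod_cast h
  have redq : ∀ (X Y : ι → ℤ) (l), tri d X Y (fun i => ty (k i) l) =
      X (j 0) * Y (j 0) * ty 0 l / d (j 0) + X (j 1) * Y (j 1) * ty 1 l / d (j 1) +
      X (j 2) * Y (j 2) * ty 2 l / d (j 2) + X (j 3) * Y (j 3) * ty 3 l / d (j 3) +
      X (j 4) * Y (j 4) * ty 4 l / d (j 4) + X (j 5) * Y (j 5) * ty 5 l / d (j 5) +
      X (j 6) * Y (j 6) * ty 6 l / d (j 6) + X (j 7) * Y (j 7) * ty 7 l / d (j 7) +
      X (j 8) * Y (j 8) * ty 8 l / d (j 8) + X (j 9) * Y (j 9) * ty 9 l / d (j 9) +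
      X (j 10) * Y (j 10) * ty 10 l / d (j 10) + X (j 11) * Y (j 11) * ty 11 l / d (j 11) +
      X (j 12) * Y (j 12) * ty 12 l / d (j 12) + X (j 13) * Y (j 13) * ty 13 l / d (j 13) :=
    fun X Y l => by
      rw [tri, red _ fun i hi => by simp [hi, z]]
      simp only [hk]; rfl
  have a0 := lin d 0 (hdV 0)
  have a1 := lin d 1 (hdV 1)
  have a2 := lin d 2 (hdV 2)
  have a4 := lin d 4 (hdV 4)
  have a5 := lin d 5 (hdV 5)
  have a6 := lin d 6 (hdV 6)
  have b0 := lin T 0 (hTV 0)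
  have b1 := lin T 1 (hTV 1)
  have b2 := lin T 2 (hTV 2)
  have b4 := lin T 4 (hTV 4)
  have b5 := lin T 5 (hTV 5)
  have b6 := lin T 6 (hTV 6)
  rw [redq] at aba abb vab vbc vae vce vbd vvb vvf vve
  have c1 := c27 (j 1)
  have c3 := c27 (j 3)
  simp only [hk, j0, d0, T0, k0] at a0 a1 a2 a4 a5 a6 b0 b1 b2 b4 b5 b6 aba abb vab vbc vae vce vbd vvb vvf vve c1 c3
  simp [ty, tyL] at a0 a1 a2 a4 a5 a6 b0 b1 b2 b4 b5 b6 aba abb vab vbc vae vce vbd vvb vvf vve c1 c3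
  have nz : ∀ a, (d (j a) : ℚ) ≠ 0 := fun a => by exact_mod_cast hd _
  rcases s4_final (s := d (j 1)) (t := d (j 2)) (u := d (j 3)) (u' := d (j 4)) (e₀ := d (j 9))
    (e₁ := d (j 10)) (d₀ := d (j 11)) (d₁ := d (j 12)) (d₂ := d (j 13)) (σ := T (j 1))
    (τ := T (j 2)) (υ := T (j 3)) (υ' := T (j 4)) (ν₀ := T (j 9)) (ν₁ := T (j 10)) (δ₀ := T (j 11))
    (δ₁ := T (j 12)) (δ₂ := T (j 13)) (n := n) (nz _) (nz _) (nz _) (nz _) (nz _) (nz _) (nz _)
    (nz _) hρ (by positivity) (by norm_cast; omega) (by norm_cast; omega) (by linarith)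
    (by linarith) (by linarith) (by linarith) (by linarith) (by linarith) (by linarith)
    (by linarith) (by linarith) (by linarith) (by linear_combination aba)
    (by linear_combination abb) (by linear_combination vab) (by linear_combination vbc)
    (by linear_combination vae) (by linear_combination vce) (by linear_combination vbd)
    (by linear_combination vvb) (by linear_combination vvf) (by linear_combination vve) with h | h
  · exact_mod_cast h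
  · have h3 : d (j 11) = 8 * n := by exact_mod_cast h
    have h4 : d (j 11) * d (j 11) ≤ 648 * n := hdd ▸ single_le_sum
      (f := fun i => d i * d i) (fun x _ => mul_self_nonneg _) (mem_univ _)
    rw [h3] at h4
    have : n ≤ 10 := by nlinarith
    omega

theorem s4_main {ι : Type*} [Fintype ι] (d T : ι → ℤ) (V : Fin 9 → ι → ℤ)
    (hd : ∀ i, d i ≠ 0) {i₀ : ι} (V0 : ∀ j, V j i₀ = ty 0 j) (d0 : d i₀ = 1)
    (T0 : T i₀ = 1) (hG : ∀ j l, ∑ i, V j i * V l i = if j = l then gn j else 0)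
    (c1 : ∀ i, (V 0 i + V 1 i - 2 * V 2 i) % 9 = 0) (c2 : ∀ i, (2 * V 0 i - V 1 i - V 2 i) % 9 = 0)
    (c3 : ∀ i, (V 3 i - V 0 i) % 2 = 0) (c4 : ∀ i, (V 0 i - V 3 i + 2 * V 8 i) % 4 = 0)
    (c5 : ∀ i, (V 0 i + V 3 i - 2 * V 7 i) % 4 = 0) (c6 : ∀ i, (V 4 i - V 1 i) % 2 = 0)
    (c7 : ∀ i, (V 5 i - V 2 i) % 3 = 0) (c8 : ∀ i, (V 6 i - V 2 i) % 3 = 0)
    (c27 : ∀ i, 27 ∣ d i + (6 * V 0 i + 12 * V 1 i + 8 * V 2 i))
    (hdV : ∀ j, ∑ i, d i * V j i = 0) (hTV : ∀ j, ∑ i, T i * V j i = 0) {n N N' : ℤ}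
    (hn0 : 0 < n) (hn : n % 27 = 1) (hdd : ∑ i, d i * d i = 648 * n)
    (h1 : n * tri d (V 0) (V 4) (V 4) = N) (h2 : 9 * n * tri d (V 3) (V 3) (V 3) = N')
    {ρ : ℚ} (hρ : ρ ≠ 0) (aba : tri d (V 0) (V 1) (V 0) = 36 / n)
    (abb : tri d (V 0) (V 1) (V 1) = 18 / n) (vab : tri d T (V 0) (V 1) = 0)
    (vbc : tri d T (V 1) (V 2) = 0) (vae : tri d T (V 0) (V 4) = 0) (vce : tri d T (V 2) (V 4) = 0)
    (vbd : tri d T (V 1) (V 3) = 8 * ρ) (vvb : tri d T T (V 1) = 8 * n * ρ ^ 2)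
    (vvf : tri d T T (V 5) = 0) (vve : tri d T T (V 4) = 0) : n = 1 := by
  choose k e he he0 hk using fun i => exists_type (fun i j => V j i) hG V0 i (c1 i) (c2 i) (c3 i)
    (c4 i) (c5 i) (c6 i) (c7 i) (c8 i)
  have p2 : ∀ X Y : ι → ℤ, ∑ i, e i * X i * (e i * Y i) = ∑ i, X i * Y i := fun X Y =>
    sum_congr rfl fun i _ => by rcases he i with h | h <;> rw [h] <;> ring
  have p3 : ∀ X Y Z : ι → ℤ, tri (fun i => e i * d i) (fun i => e i * X i) (fun i => e i * Y i)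
      (fun i => e i * Z i) = tri d X Y Z := fun X Y Z => sum_congr rfl fun i _ => by
    rcases he i with h | h <;> simp only [h] <;> push_cast <;> ring
  have k0 : k i₀ = 0 := (by decide +kernel : ∀ a : Fin 39, (∀ j, ty 0 j = ty a j) → a = 0) _
    fun j => by rw [← hk, he0 _ rfl, one_mul, V0]
  refine s4_signed k (fun i => e i * d i) (fun i => e i * T i) (fun j i => e i * V j i)
    (fun j i => hk i j) (fun i => by rcases he i with h | h <;> simp [h, hd]) k0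
    (by simp [he0 _ rfl, d0]) (by simp [he0 _ rfl, T0]) (fun j l => (p2 _ _).trans (hG j l))
    (fun i => by have := c27 i; rcases he i with h | h <;> simp only [h] <;> omega)
    (fun j => (p2 _ _).trans (hdV j)) (fun j => (p2 _ _).trans (hTV j)) hn0 hn
    ((p2 _ _).trans hdd) (N := N) (N' := N') (by rw [p3, h1]) (by rw [p3, h2]) hρ ?_ ?_ ?_ ?_ ?_ ?_ ?_
    ?_ ?_ ?_ <;> rwa [p3]

end CfsgLib.Exc.S4
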