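import Mathlib
import Cfsg.Agent.Lib.Exc.S4Model

/-!
# Restriction constraints and triangle groups for `3³ : S₄`
-/

set_option autoImplicit false

namespace CfsgLib.Exc

open Cfsg CfsgLib.Char
open scoped ComplexConjugate

variable {G : Type*} [Group G]

/-- The homomorphism `ZMod 12 → M` sending `1` to `u`. -/
def hom12 {M : Type*} [Monoid M] {u : M} (hu : u ^ 12 = 1) : Multiplicative (ZMod 12) →* M where
  toFun x := u ^ x.toAdd.val
  map_one' := pow_zero u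
  map_mul' x y := by rw [toAdd_mul, ZMod.val_add, ← pow_add, ← pow_eq_pow_mod _ hu]

/-- The values of a character on a real element of order twelve. -/
theorem c12_mults [Finite G] {u : G} (hu : u ^ 12 = 1) {χ : G → ℂ} (hχ : IsCharacter G χ)
    (h7 : χ (u ^ 7) = χ (u ^ 5)) (h8 : χ (u ^ 8) = χ (u ^ 4)) (h9 : χ (u ^ 9) = χ (u ^ 3))
    (h10 : χ (u ^ 10) = χ (u ^ 2)) (h11 : χ (u ^ 11) = χ u) {A D : ℤ} (hA : χ (u ^ 4) = A)
    (hD : χ (u ^ 2) = D) : ∃ X Y : ℤ, χ u = X + Y * (√3 : ℝ) ∧ χ (u ^ 5) = X - Y * (√3 : ℝ) ∧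
      (A - D + 2 * Y) % 4 = 0 ∧ (A + D - 2 * X) % 4 = 0 := by
  obtain ⟨s, hs'⟩ : ∃ s : ℂ, s = (√3 : ℝ) := ⟨_, rfl⟩
  have hs : s * s = 3 := by rw [hs']; exact_mod_cast Real.mul_self_sqrt (by norm_num : (0 : ℝ) ≤ 3)
  have hI := Complex.I_mul_I
  obtain ⟨η, e1⟩ : ∃ η : ℂ, η = (s - Complex.I) / 2 := ⟨_, rfl⟩
  have e2 : η ^ 2 = (1 - s * Complex.I) / 2 := by rw [e1]; linear_combination hs / 4 + hI / 4
  have e3 : η ^ 3 = -Complex.I := by
    rw [pow_succ, e2, e1]; linear_combination -Complex.I * hs / 4 + s * hI / 4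
  have e4 : η ^ 4 = (-1 - s * Complex.I) / 2 := by rw [pow_succ, e3, e1]; linear_combination hI / 2
  have e5 : η ^ 5 = (-s - Complex.I) / 2 := by
    rw [pow_add η 3 2, e3, e2]; linear_combination s * hI / 2
  have e6 : η ^ 6 = -1 := by rw [pow_add η 3 3, e3]; linear_combination hI
  have e7 : η ^ 7 = -((s - Complex.I) / 2) := by rw [pow_add η 6 1, e6, pow_one, e1]; ring
  have e8 : η ^ 8 = -((1 - s * Complex.I) / 2) := by rw [pow_add η 6 2, e6, e2]; ring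
  have e9 : η ^ 9 = Complex.I := by rw [pow_add η 6 3, e6, e3]; ring
  have e10 : η ^ 10 = -((-1 - s * Complex.I) / 2) := by rw [pow_add η 6 4, e6, e4]; ring
  have e11 : η ^ 11 = -((-s - Complex.I) / 2) := by rw [pow_add η 6 5, e6, e5]; ring
  have e12 : η ^ 12 = 1 := by rw [pow_add η 6 6, e6]; ring
  have key : ∀ k : ℕ, ∃ n : ℕ, ∑ j ∈ Finset.range 12, χ (u ^ j) * η ^ (k * j % 12) = 12 * n :=
    fun k => by
      have hk : (conj η ^ k) ^ 12 = 1 := by rw [← pow_mul, mul_comm, pow_mul, ← map_pow, e12]; simp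
      obtain ⟨n, hn⟩ := exists_classInner_eq_nat (isCharacter_comp (hom12 hu) hχ)
        (isCharacter_of_isIrr (isIrr_monoidHom (hom12 hk)))
      refine ⟨n, ?_⟩
      have := card_mul_classInner (fun x => χ (hom12 hu x)) (hom12 hk)
      rw [hn] at this
      rw [show (12 : ℂ) = (Nat.card (Multiplicative (ZMod 12)) : ℂ) by simp, this,
        ← Fin.sum_univ_eq_sum_range fun j => χ (u ^ j) * η ^ (k * j % 12)]
      refine Finset.sum_congr rfl fun j _ => ?_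
      show _ = χ (u ^ (j : ℕ)) * conj ((conj η ^ k) ^ (j : ℕ))
      rw [← pow_eq_pow_mod _ e12, pow_mul]; simp
  obtain ⟨n0, f0⟩ := key 0
  obtain ⟨n1, f1⟩ := key 1
  obtain ⟨n2, f2⟩ := key 2
  obtain ⟨n3, f3⟩ := key 3
  obtain ⟨n4, f4⟩ := key 4
  obtain ⟨n5, f5⟩ := key 5
  obtain ⟨n6, f6⟩ := key 6
  simp only [Finset.sum_range_succ, Finset.sum_range_zero, Nat.reduceMul, Nat.reduceMod, pow_zero,
    pow_one, h7, h8, h9, h10, h11, hA, hD, e2, e3, e4, e5, e6, e7, e8, e9, e10, e11]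
    at f0 f1 f2 f3 f4 f5 f6
  rw [e1] at f1 f5
  have g1 : χ u + χ (u ^ 5) = 2 * (n0 - n6 + n2 - n4) := by
    linear_combination (f0 - f6 + f2 - f4) / 6
  have g2 : χ u - χ (u ^ 5) = 2 * s * (n1 - n5) := by
    linear_combination s * (f1 - f5) / 6 - (χ u - χ (u ^ 5)) * hs / 3
  have g3 : (A + D : ℂ) = 2 * (n0 + n6 - n2 - n4) := by
    linear_combination (f0 + f6 - f2 - f4) / 6
  have g4 : (A - D : ℂ) = 2 * (2 * n3 - n1 - n5) := by linear_combination (2 * f3 - f1 - f5) / 6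
  have g3' : (A + D : ℤ) = 2 * (n0 + n6 - n2 - n4) := by exact_mod_cast g3
  have g4' : (A - D : ℤ) = 2 * (2 * n3 - n1 - n5) := by exact_mod_cast g4
  refine ⟨n0 - n6 + n2 - n4, n1 - n5, ?_, ?_, by omega, by omega⟩
  · rw [← hs']; push_cast; linear_combination (g1 + g2) / 2
  · rw [← hs']; push_cast; linear_combination (g1 - g2) / 2

/-- The multiplicities of the linear characters of `3³` in a character whose values depend only on
the weight. -/
theorem e27_mults [Finite G] (ψ : E27.V27 →* G) {χ : G → ℂ} (hχ : IsCharacter G χ) (f : ℕ → ℤ)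
    (hf : ∀ x y z : ZMod 3, χ (ψ (.ofAdd x, .ofAdd y, .ofAdd z)) =
      f ((if x = 0 then 0 else 1) + (if y = 0 then 0 else 1) + if z = 0 then 0 else 1)) :
    27 ∣ f 0 + (6 * f 1 + 12 * f 2 + 8 * f 3) ∧ (f 1 + f 2 - 2 * f 3) % 9 = 0 ∧
      (2 * f 1 - f 2 - f 3) % 9 = 0 := by
  obtain ⟨l, ω, hω, hω', hl⟩ := exists_omega
  have hl' : ∀ i j k x y z : ZMod 3, l i (.ofAdd x) * (l j (.ofAdd y) * l k (.ofAdd z)) =
      l 1 (.ofAdd (i * x + j * y + k * z)) := fun i j k x y z => by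
    simp only [ofAdd_add, map_mul, hl, one_mul, mul_assoc]
  have key : ∀ i j k : ZMod 3, ∃ n : ℕ, ∑ x, ∑ y, ∑ z, χ (ψ (x, y, z)) *
      conj (l i x * (l j y * l k z)) = 27 * n := fun i j k => by
    obtain ⟨n, hn⟩ := exists_classInner_eq_nat (isCharacter_comp ψ hχ)
      (isCharacter_of_isIrr (isIrr_monoidHom ((l i).coprod ((l j).coprod (l k)))))
    refine ⟨n, ?_⟩
    have := card_mul_classInner (fun x => χ (ψ x)) ((l i).coprod ((l j).coprod (l k)))
    rw [hn] at this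
    simp only [Fintype.sum_prod_type, MonoidHom.coprod_apply] at this
    rw [show (27 : ℂ) = (Nat.card E27.V27 : ℂ) by simp, this]
  obtain ⟨n₀, e₀⟩ := key 0 0 0
  obtain ⟨n₁, e₁⟩ := key 1 0 0
  obtain ⟨n₂, e₂⟩ := key 1 1 0
  obtain ⟨n₃, e₃⟩ := key 1 1 1
  simp only [sum_mult3, hf, hl'] at e₀ e₁ e₂ e₃
  simp +decide only [hl, if_true, if_false, map_one, hω, hω', Nat.reduceAdd] at e₀ e₁ e₂ e₃
  have g0 : f 0 + (6 * f 1 + 12 * f 2 + 8 * f 3) = 27 * n₀ := by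
    have : (f 0 + (6 * f 1 + 12 * f 2 + 8 * f 3) : ℂ) = 27 * n₀ := by linear_combination e₀
    exact_mod_cast this
  have g1 : f 1 + f 2 - 2 * f 3 = 9 * (n₁ - n₂) := by
    have : (f 1 + f 2 - 2 * f 3 : ℂ) = 9 * (n₁ - n₂) := by linear_combination (e₁ - e₂) / 3
    exact_mod_cast this
  have g2 : 2 * f 1 - f 2 - f 3 = 9 * (n₁ - n₃) := by
    have : (2 * f 1 - f 2 - f 3 : ℂ) = 9 * (n₁ - n₃) := by linear_combination (e₁ - e₃) / 3
    exact_mod_cast this
  omega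

/-- A quotient of the triangle group `(3,3,3)` with non-conjugate generators has a central element
of order three. -/
theorem tri_central [Finite G] {a b : G} (ha : a ^ 3 = 1) (hb : b ^ 3 = 1) (hab : (a * b) ^ 3 = 1)
    (hne : ¬ IsConj a b) : ∃ z : G, z ≠ 1 ∧ z ^ 3 = 1 ∧ Commute z a ∧ Commute z b := by
  obtain ⟨m, hm⟩ : 3 ∣ orderOf (a⁻¹ * b) := by
    by_contra h
    exact hne (isConj_of_triangle ha hb hab h)
  have hm0 : m ≠ 0 := by rintro rfl; exact (orderOf_pos _).ne' hm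
  have hs : orderOf ((a⁻¹ * b) ^ m) = 3 := by
    rw [orderOf_pow' _ hm0, hm, Nat.gcd_mul_left_left, Nat.mul_div_cancel _ (Nat.pos_of_ne_zero hm0)]
  obtain ⟨hc, hz⟩ := triangle_commute ha hb hab
  set x := a⁻¹ * b with hx
  set y := b * a⁻¹ with hy
  have h1 : a⁻¹ * y * a = x := by rw [hx, hy]; group
  have h2 : a⁻¹ * y ^ m * a = x ^ m := by
    rw [← h1]; simpa using (conj_pow (a := a⁻¹) (b := y) (i := m)).symm
  have h3 : a⁻¹ * x ^ m * a = (x ^ m * y ^ m)⁻¹ := by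
    rw [← hc.mul_pow, ← inv_pow, ← hz]; simpa using (conj_pow (a := a⁻¹) (b := x) (i := m)).symm
  have hs3 : (x ^ m) ^ 3 = 1 := by rw [← hs, pow_orderOf_eq_one]
  have hcm : Commute (x ^ m) (y ^ m) := hc.pow_pow m m
  have fin : ∀ z, Commute z x → a⁻¹ * z * a = z → Commute z a ∧ Commute z b := fun z e1 e2 => by
    have e3 : Commute z a := by rw [Commute, SemiconjBy]; nth_rewrite 2 [← e2]; group
    exact ⟨e3, by simpa [hx] using e3.mul_right e1⟩
  by_cases e : x ^ m = y ^ m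
  · exact ⟨x ^ m, fun h => by rw [h, orderOf_one] at hs; omega, hs3,
      fin _ ((Commute.refl x).pow_left m) (by nth_rewrite 1 [e]; exact h2)⟩
  refine ⟨(x ^ m)⁻¹ * y ^ m, fun h => e (inv_mul_eq_one.1 h), ?_, fin _
    (((Commute.refl x).pow_left m).inv_left.mul_left (hc.symm.pow_left m)) ?_⟩
  · have : (y ^ m) ^ 3 = 1 := by
      rw [show y ^ m = a * x ^ m * a⁻¹ by rw [← h2]; group, conj_pow, hs3]; simp
    rw [hcm.inv_left.mul_pow, inv_pow, hs3, this]; simp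
  · calc _ = (a⁻¹ * x ^ m * a)⁻¹ * (a⁻¹ * y ^ m * a) := by group
      _ = x ^ m * (y ^ m * x ^ m) := by rw [h3, h2]; group
      _ = (x ^ m)⁻¹ * (x ^ m) ^ 3 * y ^ m := by rw [← hcm.eq, pow_three]; group
      _ = _ := by rw [hs3, mul_one]

/-- In a quotient of the triangle group `(2,3,3)` the two elements of order three are conjugate. -/
theorem isConj_of_two_three {p q : G} (hp : p * p = 1) (hq : q ^ 3 = 1) (h : (p * q) ^ 3 = 1) :
    IsConj q (p * q) := by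
  refine isConj_iff.2 ⟨q * p * q⁻¹, ?_⟩
  calc q * p * q⁻¹ * q * (q * p * q⁻¹)⁻¹ =
        (p * p)⁻¹ * p * (p * q) ^ 3 * q⁻¹ * (p * p)⁻¹ * q * (q ^ 3)⁻¹ * q := by
        simp only [pow_succ]; group
    _ = _ := by rw [hp, hq, h]; group

end CfsgLib.Exc
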