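import Mathlib
import Cfsg.Agent.Lib.Exc.S4Loc
import Cfsg.Agent.Lib.Exc.S4Block

/-!
# Groups with a subgroup `3³ : S₄` containing the centralizers of the elements of `3³`
-/

set_option autoImplicit false
set_option linter.unusedSectionVars false

namespace CfsgLib.Exc.S4

open Cfsg CfsgLib.Char Subgroup

variable {G : Type*} [Group G] [Finite G]

theorem right_eq_one_of_three {w u : W} (hw : cls w = 1 ∨ cls w = 2) (h : u * w = w * u) {j : ℕ}
    (hj : u ^ 3 ^ j = 1) : u.right = 1 := by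
  obtain ⟨h1, h2, h3⟩ := cent_cls hw h
  obtain ⟨g, hg⟩ := isConj_iff.1 ((isConj_rep_iff _ u).2 rfl)
  have h4 : rep (cls u) ^ 3 ^ j = 1 := by
    rw [← hg, conj_pow] at hj; simpa using hj
  rcases (by decide +kernel : ∀ k : Fin 14, k ≠ 6 → k ≠ 7 → k ≠ 12 → k ≤ 3 ∨
    ((rep k ^ 3) ^ 4 = 1 ∧ rep k ^ 3 ≠ 1)) _ h1 h2 h3 with e | ⟨e1, e2⟩
  · exact (right_eq_one_iff u).2 e
  · have h5 : (rep (cls u) ^ 3) ^ 3 ^ j = 1 := by rw [← pow_mul, mul_comm, pow_mul, h4, one_pow]
    have := pow_gcd_eq_one.2 ⟨e1, h5⟩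
    rw [Nat.Coprime.pow_right j (by norm_num : Nat.Coprime 4 3), pow_one] at this
    exact absurd this e2

/-- The image of `φ` contains the centralizers of the elements of `3³`, and `3³` is strongly
closed. -/
structure Data (φ : W →* G) : Prop where
  inj : Function.Injective φ
  cent : ∀ w : W, w.right = 1 → w ≠ 1 → centralizer {φ w} ≤ φ.range
  sc : ∀ w : W, w.right = 1 → ∀ (g : G) (u : W), g * φ w * g⁻¹ = φ u → u.right = 1

/-- The special classes. -/
def Sp (k : Fin 14) : Prop := 1 ≤ k ∧ k ≤ 9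

instance : DecidablePred Sp := fun _ => inferInstanceAs (Decidable (_ ∧ _))

/-- The number of factorisations of `z` as a product of conjugates of `x` and `y`. -/
noncomputable def num (φ : W →* G) (k l m : Fin 14) : ℕ :=
  Nat.card {p : G × G // IsConj (φ (rep k)) p.1 ∧ IsConj (φ (rep l)) p.2 ∧ p.1 * p.2 = φ (rep m)}

theorem pow_eq_one_of_isConj {φ : W →* G} {k : Fin 14} {n : ℕ} (hk : rep k ^ n = 1) {p : G}
    (hp : IsConj (φ (rep k)) p) : p ^ n = 1 := by
  obtain ⟨g, rfl⟩ := isConj_iff.1 hp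
  rw [conj_pow, ← map_pow, hk]; simp

theorem isConj_rep (φ : W →* G) (u : W) : IsConj (φ (rep (cls u))) (φ u) :=
  φ.map_isConj ((isConj_rep_iff _ _).2 rfl)

namespace Data

variable {φ : W →* G} (h : Data φ)
include h

theorem ne_one {w : W} (hw : w ≠ 1) : φ w ≠ 1 := fun e => hw (h.inj (e.trans φ.map_one.symm))

theorem ti {w : W} (hw : w.right = 1) (h1 : w ≠ 1) {g : G} (hg : g * φ w * g⁻¹ ∈ φ.range) :
    g ∈ φ.range := by
  obtain ⟨u, hu⟩ := hg
  have hu1 : u ≠ 1 := by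
    rintro rfl
    exact h.ne_one h1 (by simpa using hu.symm)
  have key : ∀ w : W, w.right = 1 → w ≠ 1 → (cls w ≤ 3 ∧ cls w ≠ 0) ∧
      Nat.card (centralizer ({φ w} : Set G)) = cc (cls w) := fun w hw h1 => by
    have h2 : cls w ≤ 3 ∧ cls w ≠ 0 := ⟨(right_eq_one_iff w).1 hw, fun e => h1 (cls_eq_zero w e)⟩
    obtain ⟨h3, h4⟩ := (by decide +kernel : ∀ k : Fin 14, k ≤ 3 ∧ k ≠ 0 →
      (rep k).right = 1 ∧ rep k ≠ 1) _ h2
    exact ⟨h2, by rw [← card_centralizer_eq_of_isConj (isConj_rep φ w),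
      card_centralizer_local h.inj (h.cent _ h3 h4), card_cent]⟩
  obtain ⟨a1, a2⟩ := key w hw h1
  obtain ⟨b1, b2⟩ := key u (h.sc w hw g u hu.symm) hu1
  have e : cls u = cls w := (by decide +kernel : ∀ k l : Fin 14, k ≤ 3 ∧ k ≠ 0 → l ≤ 3 ∧ l ≠ 0 →
    cc k = cc l → k = l) _ _ b1 a1 (by
      rw [← a2, ← b2, card_centralizer_eq_of_isConj (isConj_iff.2 ⟨g, hu.symm⟩)])
  obtain ⟨c, hc⟩ := isConj_iff.1 (((isConj_rep_iff _ w).2 rfl).symm.trans ((isConj_rep_iff _ u).2 e))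
  have : (φ c)⁻¹ * g ∈ φ.range := h.cent w hw h1 (mem_centralizer_singleton_iff.2 (by
    rw [← hc, map_mul, map_mul, map_inv] at hu
    calc _ = (φ c)⁻¹ * (g * φ w * g⁻¹) * g := by group
      _ = _ := by rw [← hu]; group))
  simpa using mul_mem (⟨c, rfl⟩ : φ c ∈ φ.range) this

theorem mem_range {k : Fin 14} (hk : Sp k) {g : G} (hg : g * φ (rep k) * g⁻¹ ∈ φ.range) :
    g ∈ φ.range := by
  obtain ⟨m, -, h1, h2⟩ := (by decide +kernel : ∀ k, Sp k → ∃ m < 5,
    (rep k ^ m).right = 1 ∧ rep k ^ m ≠ 1) k hk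
  exact h.ti h1 h2 (by rw [map_pow, ← conj_pow]; exact pow_mem hg m)

theorem isConj_sp {k : Fin 14} (hk : Sp k) (u : W) : IsConj (φ (rep k)) (φ u) ↔ cls u = k := by
  rw [← isConj_rep_iff]
  refine ⟨fun hc => ?_, fun hc => φ.map_isConj hc⟩
  obtain ⟨g, hg⟩ := isConj_iff.1 hc
  obtain ⟨v, rfl⟩ := h.mem_range hk (g := g) ⟨u, hg.symm⟩
  exact isConj_iff.2 ⟨v, h.inj (by simpa using hg)⟩

theorem not_isConj {k l : Fin 14} (hk : Sp k) (hkl : l ≠ k) :
    ¬ IsConj (φ (rep k)) (φ (rep l)) := by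
  rw [h.isConj_sp hk, cls_rep]; exact hkl

theorem card_cent {k : Fin 14} (hk : Sp k) : Nat.card (centralizer ({φ (rep k)} : Set G)) = cc k := by
  rw [card_centralizer_local h.inj, S4.card_cent]
  intro g hg
  refine h.mem_range hk ?_
  rw [mem_centralizer_singleton_iff.1 hg, mul_inv_cancel_right]
  exact ⟨_, rfl⟩

/-- The centralizer of a 3-element commuting with an element of type `1` or `2`. -/
theorem mem_of_comm {w : W} (hw : cls w = 1 ∨ cls w = 2) {z x : G} (h1 : z ≠ 1) {j : ℕ}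
    (hj : z ^ 3 ^ j = 1) (hz : Commute z (φ w)) (hx : Commute z x) : x ∈ φ.range := by
  obtain ⟨u, rfl⟩ := h.cent w ((right_eq_one_iff w).2 (by rcases hw with e | e <;> simp [e]))
    (by rintro rfl; revert hw; decide +kernel) (mem_centralizer_singleton_iff.2 hz)
  exact h.cent u (right_eq_one_of_three hw (h.inj (by rw [map_mul, map_mul, hz.eq]))
    (h.inj (by rw [map_pow, hj, map_one]))) (fun e => h1 (by rw [e, map_one]))
    (mem_centralizer_singleton_iff.2 hx.symm)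

theorem mem_of_tri {w : W} (hw : cls w = 1 ∨ cls w = 2) {x : G} (hx : x ^ 3 = 1)
    (h3 : (φ w * x) ^ 3 = 1) (hne : ¬ IsConj (φ w) x) : x ∈ φ.range := by
  obtain ⟨z, a1, a2, a3, a4⟩ := tri_central (pow_eq_one_of_isConj
    (by rcases hw with e | e <;> rw [e] <;> decide +kernel) (isConj_rep φ w)) hx h3 hne
  exact h.mem_of_comm hw a1 (j := 1) a2 a3 a4

theorem not_isConj_inv : ¬ IsConj (φ (rep 10)) (φ (rep 11)) := by
  have := Fact.mk Nat.prime_three
  intro hc
  obtain ⟨g, hg⟩ := isConj_iff.1 hc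
  set K := centralizer ({φ (rep 11)} : Set G)
  have hb : φ (rep 2) ∈ K := mem_centralizer_singleton_iff.2 (by
    rw [← map_mul, ← map_mul, show rep 2 * rep 11 = rep 11 * rep 2 by decide +kernel])
  have ha : g * φ (rep 1) * g⁻¹ ∈ K := mem_centralizer_singleton_iff.2 (by
    rw [← hg, conj_mul, conj_mul, ← map_mul, ← map_mul,
      show rep 1 * rep 10 = rep 10 * rep 1 by decide +kernel])
  have o1 : orderOf (⟨_, ha⟩ : K) = 3 ^ 1 := by
    rw [← orderOf_coe, pow_one]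
    exact orderOf_eq_prime (by rw [conj_pow, ← map_pow, show rep 1 ^ 3 = 1 by decide +kernel]; simp)
      (by simpa using h.ne_one (by decide +kernel))
  have o2 : orderOf (⟨_, hb⟩ : K) = 3 ^ 1 := by
    rw [← orderOf_coe, pow_one]
    exact orderOf_eq_prime (by rw [← map_pow, show rep 2 ^ 3 = 1 by decide +kernel]; simp)
      (h.ne_one (by decide +kernel))
  obtain ⟨Q, hQ⟩ := (IsPGroup.of_card ((Nat.card_zpowers _).trans o2)).exists_le_sylow
  obtain ⟨k, hk⟩ := exists_conj_mem_sylow Q o1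
  have hbQ := hQ (mem_zpowers _)
  have : Nontrivial (Q : Subgroup K) := ⟨⟨⟨_, hbQ⟩, 1, fun e =>
    h.ne_one (w := rep 2) (by decide +kernel) (congrArg (fun x => x.1.1) e)⟩⟩
  have := Q.isPGroup'.center_nontrivial
  obtain ⟨z, hz⟩ := exists_ne (1 : center (Q : Subgroup K))
  obtain ⟨j, hj⟩ := Q.isPGroup' z
  have hcz : ∀ y : K, y ∈ (Q : Subgroup K) → Commute (z.1.1 : G) y := fun y hy =>
    congrArg (fun x : (Q : Subgroup K) => (x.1 : G)) (mem_center_iff.1 z.2 ⟨y, hy⟩).symm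
  obtain ⟨u, hu⟩ := h.mem_of_comm (w := rep 2) (Or.inr (cls_rep 2)) (z := z.1.1)
    (fun e => hz (Subtype.ext (Subtype.ext (Subtype.ext e)))) (j := j)
    (congrArg (fun x => x.1.1) hj) (hcz _ hbQ) (hcz _ hk)
  refine not_comm_s (u := u) ((h.isConj_sp (by decide) u).1 ?_) (h.inj ?_)
  · rw [hu]; exact (isConj_iff.2 ⟨g, rfl⟩).trans (isConj_iff.2 ⟨k, rfl⟩)
  · rw [map_mul, map_mul, hu]; exact mem_centralizer_singleton_iff.1 (k * ⟨_, ha⟩ * k⁻¹).2

theorem isConj_inv (u : W) : IsConj (φ (rep 10)) (φ u) ↔ cls u = 10 := by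
  refine ⟨fun hc => ?_, fun e => e ▸ isConj_rep φ u⟩
  have h1 : u * u = 1 := h.inj (by
    rw [map_mul, ← sq, pow_eq_one_of_isConj (by decide +kernel) hc, map_one])
  rcases cls_invol u h1 with e | e | e
  · rw [cls_eq_zero u e, map_one, isConj_one_left] at hc
    exact absurd hc (h.ne_one (by decide +kernel))
  · exact e
  · exact absurd (hc.trans (e ▸ isConj_rep φ u).symm) h.not_isConj_inv

theorem num_three {m : Fin 14} (hm : m = 1 ∨ m = 2) : num φ 1 2 m = cnt 1 2 m := by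
  have hs : Sp m := by rcases hm with rfl | rfl <;> decide
  refine count_local h.inj (fun p q hp hq e => ?_) _ _ (h.isConj_sp (by decide))
    (h.isConj_sp (by decide))
  obtain ⟨g, rfl⟩ := isConj_iff.1 hp
  have e' : φ (rep 1) * (g⁻¹ * q * g⁻¹⁻¹) = g⁻¹ * φ (rep m) * g⁻¹⁻¹ := by rw [← e]; group
  have h1 := h.mem_of_tri (Or.inl (cls_rep 1)) (x := g⁻¹ * q * g⁻¹⁻¹)
    (by rw [conj_pow, pow_eq_one_of_isConj (by decide +kernel) hq]; simp)
    (by rw [e', conj_pow, ← map_pow, show rep m ^ 3 = 1 by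
      rcases hm with rfl | rfl <;> decide +kernel]; simp)
    (fun hc => h.not_isConj (k := 1) (l := 2) (by decide) (by decide)
      (hc.trans (hq.trans (isConj_iff.2 ⟨g⁻¹, rfl⟩)).symm))
  have h2 := h.mem_range hs (e' ▸ mul_mem (⟨_, rfl⟩ : φ (rep 1) ∈ φ.range) h1)
  exact mul_mem (mul_mem (inv_mem_iff.1 h2) ⟨_, rfl⟩) h2

theorem num_six {l m : Fin 14} (hm : (l = 1 ∧ m = 5) ∨ (l = 3 ∧ m = 5) ∨ (l = 2 ∧ m = 4)) :
    num φ 10 l m = cnt 10 l m := by
  obtain ⟨h0, h1, h2, h3⟩ := (by decide +kernel : ∀ l m : Fin 14,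
    (l = 1 ∧ m = 5) ∨ (l = 3 ∧ m = 5) ∨ (l = 2 ∧ m = 4) → Sp l ∧
    (cls (rep m * rep m) = 1 ∨ cls (rep m * rep m) = 2) ∧ rep l ^ 3 = 1 ∧
    cls (rep m * rep m)⁻¹ ≠ l) l m hm
  refine count_local h.inj (fun p q hp hq e => ?_) _ _ h.isConj_inv (h.isConj_sp h0)
  have hp2 : p * p = 1 := by rw [← sq]; exact pow_eq_one_of_isConj (by decide +kernel) hp
  have hq3 := pow_eq_one_of_isConj h2 hq
  have := h.mem_of_tri h1 (x := q⁻¹) (by rw [inv_pow, hq3, inv_one])
    (by
      rw [map_mul, ← e, show p * q * (p * q) * q⁻¹ = p * q * p⁻¹ by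
        rw [inv_eq_of_mul_eq_one_right hp2]; group, conj_pow, hq3]; simp)
    (fun hc => h3 ((h.isConj_sp h0 _).1 (hq.trans (by
      obtain ⟨g, hg⟩ := isConj_iff.1 hc.symm
      exact isConj_iff.2 ⟨g, by rw [map_inv, ← hg]; group⟩))))
  rw [eq_mul_inv_of_mul_eq e]
  exact mul_mem ⟨_, rfl⟩ this

theorem num_four {l m : Fin 14} (hm : (l = 1 ∧ m = 2) ∨ (l = 2 ∧ m = 3)) : num φ 10 l m = 0 := by
  obtain ⟨h0, h1, h2, h3⟩ := (by decide +kernel : ∀ l m : Fin 14,
    (l = 1 ∧ m = 2) ∨ (l = 2 ∧ m = 3) → Sp l ∧ rep l ^ 3 = 1 ∧ rep m ^ 3 = 1 ∧ m ≠ l) l m hm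
  refine Nat.card_eq_zero.2 (Or.inl ⟨fun ⟨⟨p, q⟩, hp, hq, e⟩ => h.not_isConj h0 h3 ?_⟩)
  exact hq.trans (e ▸ isConj_of_two_three
    (by rw [← sq]; exact pow_eq_one_of_isConj (by decide +kernel) hp) (pow_eq_one_of_isConj h1 hq)
    (by rw [e, ← map_pow, h2, map_one]))

theorem num_inv {m : Fin 14} (hm : Sp m) : num φ 10 10 m = cnt 10 10 m := by
  refine count_local h.inj (fun p q hp hq e => h.mem_range hm ?_) _ _ h.isConj_inv h.isConj_inv
  have h1 : p ^ 2 = 1 := pow_eq_one_of_isConj (by decide +kernel) hp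
  have h2 : q ^ 2 = 1 := pow_eq_one_of_isConj (by decide +kernel) hq
  rw [sq] at h1 h2
  have h3 : p * φ (rep m) * p⁻¹ = (φ (rep m))⁻¹ := by
    rw [← e, ← mul_assoc, h1, one_mul, mul_inv_rev, inv_eq_of_mul_eq_one_right h2]
  rw [h3]
  exact inv_mem ⟨_, rfl⟩

theorem index_mod : φ.range.index % 27 = 1 := by
  have := Perm.card_dvd_of_free_on ((SemidirectProduct.inl : E27.V27 →* W).range.map φ)
    ({((1 : G) : G ⧸ φ.range)}ᶜ : Set (G ⧸ φ.range)) ?_ ?_
  · rw [card_map_of_injective h.inj,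
      ← Nat.card_congr (MonoidHom.ofInjective SemidirectProduct.inl_injective).toEquiv,
      show Nat.card E27.V27 = 27 by simp] at this
    have h1 := Set.ncard_add_ncard_compl ({((1 : G) : G ⧸ φ.range)} : Set (G ⧸ φ.range))
    rw [Set.ncard_singleton] at h1
    rw [index, ← h1]
    omega
  · rintro _ ⟨w, -, rfl⟩ x hx e
    induction x using QuotientGroup.induction_on with | H g =>
    refine hx (QuotientGroup.eq.2 ?_)
    have : (φ w * g)⁻¹ * 1 ∈ φ.range := QuotientGroup.eq.1 e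
    simpa using mul_mem this (⟨w, rfl⟩ : φ w ∈ φ.range)
  · rintro _ ⟨_, ⟨v, rfl⟩, rfl⟩ x hx e
    induction x using QuotientGroup.induction_on with | H g =>
    by_contra h1
    refine hx (QuotientGroup.eq.2 ?_)
    have : (φ (.inl v) * g)⁻¹ * g ∈ φ.range := QuotientGroup.eq.1 e
    rw [mul_one]
    exact h.ti (w := .inl v) rfl (fun e => h1 (by rw [e, map_one])) (by
      simpa [mul_assoc] using inv_mem this)

theorem exists_int {χ : G → ℂ} (hχ : IsCharacter G χ) {k : Fin 14} (hk : k ≤ 7 ∨ k = 10) :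
    ∃ z : ℤ, χ (φ (rep k)) = z := by
  refine CharGal.exists_int_of_pow_invariant hχ _ fun m hm => ?_
  have h72 : 648 ∣ Nat.card G := card_W ▸ card_dvd_of_injective φ h.inj
  have h2 : ¬ 2 ∣ m := fun e => by
    have := Nat.dvd_gcd e ((by norm_num : 2 ∣ 648).trans h72)
    rw [hm] at this; omega
  have h3 : ¬ 3 ∣ m := fun e => by
    have := Nat.dvd_gcd e ((by norm_num : 3 ∣ 648).trans h72)
    rw [hm] at this; omega
  obtain ⟨e1, e2⟩ := (by decide +kernel : ∀ k : Fin 14, k ≤ 7 ∨ k = 10 → rep k ^ 18 = 1 ∧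
    ∀ j < 18, j % 2 ≠ 0 → j % 3 ≠ 0 → cls (rep k ^ j) = k) k hk
  rw [← map_pow, pow_eq_pow_mod m e1]
  exact (classFun_eq_of_isConj (isClassFunction_of_isCharacter hχ) (φ.map_isConj
    ((isConj_rep_iff _ _).2 (e2 _ (Nat.mod_lt _ (by norm_num)) (by omega) (by omega))))).symm

theorem range_eq_top : φ.range = ⊤ := by
  classical
  choose d hd0 hd using fun χ : IrrCharacter G => exists_irr_one_eq_nat χ.2
  have cf : ∀ (χ : IrrCharacter G) (u : W), (χ : G → ℂ) (φ u) = (χ : G → ℂ) (φ (rep (cls u))) :=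
    fun χ u => (classFun_eq_of_isConj (isClassFunction_of_isCharacter (irr_isCharacter χ))
      (isConj_rep φ u)).symm
  choose Z hZ using fun (k : Fin 8) (χ : IrrCharacter G) =>
    h.exists_int (irr_isCharacter χ) (k := k.castLE (by norm_num)) (Or.inl (Nat.le_of_lt_succ k.2))
  choose T hT using fun χ : IrrCharacter G => h.exists_int (irr_isCharacter χ) (Or.inr rfl)
  have pw : ∀ (χ : IrrCharacter G) (j : ℕ),
      (χ : G → ℂ) (φ (rep 8) ^ j) = (χ : G → ℂ) (φ (rep (cls (rep 8 ^ j)))) := fun χ j => by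
    rw [← map_pow, cf]
  choose X Y hX hY c4 c5 using fun χ : IrrCharacter G => c12_mults (u := φ (rep 8))
    (by rw [← map_pow, show rep 8 ^ 12 = 1 by decide +kernel, map_one]) (irr_isCharacter χ)
    (by rw [pw, pw, show cls (rep 8 ^ 7) = cls (rep 8 ^ 5) by decide +kernel])
    (by rw [pw, pw, show cls (rep 8 ^ 8) = cls (rep 8 ^ 4) by decide +kernel])
    (by rw [pw, pw, show cls (rep 8 ^ 9) = cls (rep 8 ^ 3) by decide +kernel])
    (by rw [pw, pw, show cls (rep 8 ^ 10) = cls (rep 8 ^ 2) by decide +kernel])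
    (by rw [pw, show cls (rep 8 ^ 11) = 8 by decide +kernel]) (A := Z 1 χ) (D := Z 4 χ)
    (by rw [pw, show cls (rep 8 ^ 4) = 1 by decide +kernel]; exact hZ 1 χ)
    (by rw [pw, show cls (rep 8 ^ 2) = 4 by decide +kernel]; exact hZ 4 χ)
  replace hY : ∀ χ : IrrCharacter G, (χ : G → ℂ) (φ (rep 9)) = X χ - Y χ * (√3 : ℝ) := fun χ => by
    rw [← hY, pw, show cls (rep 8 ^ 5) = 9 by decide +kernel]
  have hI : ∀ χ : IrrCharacter G, (χ : G → ℂ) (φ (rep 0)) = ((d χ : ℤ) : ℂ) := fun χ => by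
    rw [show rep 0 = 1 by decide +kernel, map_one, hd]; simp
  have hs : ((√3 : ℝ) : ℂ) * (√3 : ℝ) = 3 := by
    exact_mod_cast Real.mul_self_sqrt (by norm_num : (0 : ℝ) ≤ 3)
  have hs0 : ((√3 : ℝ) : ℂ) ≠ 0 := fun e => by rw [e] at hs; norm_num at hs
  have orth : ∀ {k l : Fin 14} {Y Z : IrrCharacter G → ℤ},
      (∀ χ : IrrCharacter G, (χ : G → ℂ) (φ (rep k)) = Y χ) →
      (∀ χ : IrrCharacter G, (χ : G → ℂ) (φ (rep l)) = Z χ) → Sp l → k ≠ l →
      ∑ χ, Y χ * Z χ = 0 := fun hY hZ hl hkl =>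
    col_ne_int (fun hc => h.not_isConj hl hkl hc.symm) _ _ hY hZ
  have orth' : ∀ {k : Fin 14} {U : IrrCharacter G → ℤ},
      (∀ χ : IrrCharacter G, (χ : G → ℂ) (φ (rep k)) = U χ) → k ≠ 8 → k ≠ 9 →
      ∑ χ, U χ * X χ = 0 ∧ ∑ χ, U χ * Y χ = 0 := fun {k U} hU h8 h9 => by
    have a := column_orthogonality_of_not_isConj fun hc => h.not_isConj (by decide) h8 hc.symm
    have b := column_orthogonality_of_not_isConj fun hc => h.not_isConj (by decide) h9 hc.symm
    simp only [hU, hX, hY, map_add, map_sub, map_mul, map_intCast, Complex.conj_ofReal, mul_add,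
      mul_sub, ← mul_assoc, Finset.sum_add_distrib, Finset.sum_sub_distrib, ← Finset.sum_mul] at a b
    have a' : ∑ χ, (U χ * X χ : ℂ) = 0 := by linear_combination (a + b) / 2
    have b' : ∑ χ, (U χ * Y χ : ℂ) = 0 :=
      mul_right_cancel₀ hs0 (by linear_combination (a - b) / 2)
    exact ⟨by exact_mod_cast a', by exact_mod_cast b'⟩
  have hXY : ∑ χ, X χ * X χ = 6 ∧ ∑ χ, X χ * Y χ = 0 ∧ ∑ χ, Y χ * Y χ = 2 := by
    have a := column_orthogonality_self (φ (rep 8))
    have b := column_orthogonality_self (φ (rep 9))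
    have c := column_orthogonality_of_not_isConj (h.not_isConj (k := 8) (l := 9) (by decide)
      (by decide))
    rw [h.card_cent (by decide)] at a b
    simp only [hX, hY, map_add, map_sub, map_mul, map_intCast, Complex.conj_ofReal] at a b c
    have e : ∀ ε ε' : ℂ, ∑ χ, (X χ + ε * (Y χ * (√3 : ℝ))) * (X χ + ε' * (Y χ * (√3 : ℝ))) =
        ∑ χ, (X χ * X χ : ℂ) + (ε + ε') * (√3 : ℝ) * ∑ χ, (X χ * Y χ : ℂ) +
          3 * ε * ε' * ∑ χ, (Y χ * Y χ : ℂ) := fun ε ε' => by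
      rw [Finset.mul_sum, Finset.mul_sum, ← Finset.sum_add_distrib, ← Finset.sum_add_distrib]
      exact Finset.sum_congr rfl fun χ _ => by linear_combination ε * ε' * Y χ * Y χ * hs
    have e1 := e 1 1
    have e2 := e (-1) (-1)
    have e3 := e 1 (-1)
    simp only [one_mul, neg_mul, ← sub_eq_add_neg, a, b, c, show cc 8 = 12 from rfl,
      show cc 9 = 12 from rfl, Nat.cast_ofNat] at e1 e2 e3
    have f1 : ∑ χ, (X χ * X χ : ℂ) = 6 := by linear_combination -(e1 + e2) / 4 - e3 / 2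
    have f2 : ∑ χ, (X χ * Y χ : ℂ) = 0 :=
      mul_left_cancel₀ hs0 (by linear_combination (e2 - e1) / 4)
    have f3 : ∑ χ, (Y χ * Y χ : ℂ) = 2 := by linear_combination -(e1 + e2) / 12 + e3 / 6
    exact ⟨by exact_mod_cast f1, by exact_mod_cast f2, by exact_mod_cast f3⟩
  let V : Fin 9 → IrrCharacter G → ℤ := fun j =>
    if hj : j.val < 7 then Z ⟨j + 1, by omega⟩ else if j = 7 then X else Y
  have hV : ∀ j : Fin 9, j.val < 7 → ∀ χ : IrrCharacter G,
      (χ : G → ℂ) (φ (rep (Fin.ofNat 14 (j + 1)))) = V j χ := fun j hj χ => by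
    simp only [V, dif_pos hj, ← hZ]
    exact congrArg (fun k => (χ : G → ℂ) (φ (rep k)))
      (Fin.ext (Nat.mod_eq_of_lt (by omega : (j : ℕ) + 1 < 14)))
  have orthV : ∀ {k : Fin 14} {U : IrrCharacter G → ℤ},
      (∀ χ : IrrCharacter G, (χ : G → ℂ) (φ (rep k)) = U χ) → k ≠ 8 → k ≠ 9 →
      ∀ j : Fin 9, k ≠ Fin.ofNat 14 (j + 1) → ∑ χ, U χ * V j χ = 0 := fun hU h8 h9 j hj => by
    rcases (by decide : ∀ j : Fin 9, (j.val < 7 ∧ Sp (Fin.ofNat 14 (j + 1))) ∨ j = 7 ∨ j = 8) j with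
      ⟨e, e'⟩ | rfl | rfl
    exacts [orth hU (hV j e) e' hj, (orth' hU h8 h9).1, (orth' hU h8 h9).2]
  have cong : ∀ {p : ℕ}, p.Prime → ∀ k l : Fin 8,
      cls (rep (k.castLE (by norm_num)) ^ p) = l.castLE (by norm_num) →
      ∀ χ, (Z k χ - Z l χ) % p = 0 := fun {p} hp k l e χ => by
    have := Glaub.int_char_pow_cong hp (irr_isCharacter χ) _ (hZ k χ) (b := Z l χ) (by
      rw [← map_pow, cf, e, hZ])
    exact Int.emod_eq_zero_of_dvd ((ZMod.intCast_eq_intCast_iff_dvd_sub _ _ _).1 this.symm)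
  have c27 := fun χ : IrrCharacter G => e27_mults (φ.comp SemidirectProduct.inl) (irr_isCharacter χ)
    (fun n => Z (Fin.ofNat 8 n) χ) fun x y z => by
      rw [MonoidHom.comp_apply, cf, ← hZ, ← cls_inl]
      have := (right_eq_one_iff (.inl (.ofAdd x, .ofAdd y, .ofAdd z))).1 rfl
      exact congrArg (fun k => (χ : G → ℂ) (φ (rep k)))
        (Fin.ext (Nat.mod_eq_of_lt (lt_of_le_of_lt this (by norm_num : 3 < 8))).symm)
  have hZ0 : ∀ χ, Z 0 χ = d χ := fun χ => by exact_mod_cast (hZ 0 χ).symm.trans (hI χ)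
  obtain ⟨n, hn⟩ : ∃ n, n = φ.range.index := ⟨_, rfl⟩
  have hG : Nat.card G = 648 * n := by
    rw [← φ.range.card_mul_index, ← Nat.card_congr (MonoidHom.ofInjective h.inj).toEquiv, card_W, hn]
  have n0 : 0 < n := hn ▸ Nat.pos_of_ne_zero index_ne_zero_of_finite
  have n1 : (n : ℚ) ≠ 0 := by positivity
  have const : ∀ {k l m : Fin 14} {Y Z U : IrrCharacter G → ℤ},
      (∀ χ : IrrCharacter G, (χ : G → ℂ) (φ (rep k)) = Y χ) →
      (∀ χ : IrrCharacter G, (χ : G → ℂ) (φ (rep l)) = Z χ) →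
      (∀ χ : IrrCharacter G, (χ : G → ℂ) (φ (rep m)) = U χ) →
      tri (fun χ => d χ) Y Z U = num φ k l m * Nat.card (centralizer ({φ (rep k)} : Set G)) *
        Nat.card (centralizer ({φ (rep l)} : Set G)) / (648 * n) := fun hY hZ hU => by
    have := class_const_int _ _ _ _ _ _ d hY hZ hU hd
    rw [hG] at this
    rw [eq_div_iff (by positivity), mul_comm, num, ← this]
    push_cast; rfl
  have hA := hV 0 (by decide)
  have hB := hV 1 (by decide)
  have hC := hV 2 (by decide)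
  have hD := hV 3 (by decide)
  have hE := hV 4 (by decide)
  have hF := hV 5 (by decide)
  have c1 : Nat.card (centralizer ({φ (rep 1)} : Set G)) = 108 := h.card_cent (by decide)
  have c2 : Nat.card (centralizer ({φ (rep 2)} : Set G)) = 54 := h.card_cent (by decide)
  have c3 : Nat.card (centralizer ({φ (rep 4)} : Set G)) = 12 := h.card_cent (by decide)
  have c6 : Nat.card (centralizer ({φ (rep 5)} : Set G)) = 6 := h.card_cent (by decide)
  obtain ⟨γ, hγ⟩ : ∃ γ : ℚ, γ = Nat.card (centralizer ({φ (rep 10)} : Set G)) := ⟨_, rfl⟩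
  have γ0 : γ ≠ 0 := by rw [hγ]; exact_mod_cast Nat.card_pos.ne'
  obtain ⟨k1, k2, k3, k4, k5, k6, k7, k8⟩ := cnt_eq
  have triv : ∀ k, Z k (irrOne G) = 1 := fun k => by
    exact_mod_cast (hZ k (irrOne G)).symm.trans (irrOne_apply _)
  have := s4_main (fun χ => d χ) T V (fun χ => by exact_mod_cast (hd0 χ).ne') (i₀ := irrOne G)
    ?_ (by rw [← hZ0, triv]) (by exact_mod_cast (hT (irrOne G)).symm.trans (irrOne_apply _)) ?_
    (fun χ => (c27 χ).2.1) (fun χ => (c27 χ).2.2) (cong Nat.prime_two 4 1 (by decide +kernel)) c4 c5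
    (cong Nat.prime_two 5 2 (by decide +kernel)) (cong Nat.prime_three 6 3 (by decide +kernel))
    (cong Nat.prime_three 7 3 (by decide +kernel)) (fun χ => hZ0 χ ▸ (c27 χ).1)
    (fun j => orthV hI (by decide) (by decide) j (by revert j; decide))
    (fun j => orthV hT (by decide) (by decide) j (by revert j; decide)) (n := n)
    (N := num φ 1 5 5) (N' := 2 * num φ 4 4 4) (by exact_mod_cast n0)
    (by exact_mod_cast hn ▸ h.index_mod)
    (by
      rw [col_self_int _ _ hI, show rep 0 = 1 by decide +kernel, map_one,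
        centralizer_eq_top_iff_subset.2 (by simp), card_top, hG]
      simp)
    (by rw [const (k := 1) (l := 5) (m := 5) hA hE hE, c1, c6]; push_cast; field_simp; ring)
    (by rw [const (k := 4) (l := 4) (m := 4) hD hD hD, c3]; push_cast; field_simp; ring)
    (ρ := γ / (24 * n)) (by positivity)
    (by rw [const (k := 1) (l := 2) (m := 1) hA hB hA, h.num_three (Or.inl rfl), k1, c1, c2]
        push_cast; field_simp; ring)
    (by rw [const (k := 1) (l := 2) (m := 2) hA hB hB, h.num_three (Or.inr rfl), k2, c1, c2]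
        push_cast; field_simp; ring)
    (by rw [const (l := 1) (m := 2) hT hA hB, h.num_four (by decide)]; simp)
    (by rw [const (l := 2) (m := 3) hT hB hC, h.num_four (by decide)]; simp)
    (by rw [const (l := 1) (m := 5) hT hA hE, h.num_six (by decide), k3]; simp)
    (by rw [const (l := 3) (m := 5) hT hC hE, h.num_six (by decide), k4]; simp)
    (by rw [const (l := 2) (m := 4) hT hB hD, h.num_six (by decide), k5, c2, ← hγ]
        push_cast; field_simp; ring)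
    (by rw [const (m := 2) hT hT hB, h.num_inv (by decide), k6, ← hγ]
        push_cast; field_simp; ring)
    (by rw [const (m := 6) hT hT hF, h.num_inv (by decide), k7]; simp)
    (by rw [const (m := 5) hT hT hE, h.num_inv (by decide), k8]; simp)
  · exact index_eq_one.1 (by exact_mod_cast hn ▸ this)
  · have a := (hX (irrOne G)).symm.trans (irrOne_apply _)
    have b := (hY (irrOne G)).symm.trans (irrOne_apply _)
    have a' : (X (irrOne G) : ℂ) = 1 := by linear_combination (a + b) / 2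
    have b' : (Y (irrOne G) : ℂ) = 0 := mul_right_cancel₀ hs0 (by linear_combination (a - b) / 2)
    intro j
    rcases (by decide : ∀ j : Fin 9, (j.val < 7 ∧ ty 0 j = 1) ∨ j = 7 ∨ j = 8) j with
      ⟨e, e'⟩ | rfl | rfl
    · simp only [V, dif_pos e, triv, e']
    · exact_mod_cast a'
    · exact_mod_cast b'
  · have low : ∀ j l : Fin 9, j.val < 7 → ∑ χ, V j χ * V l χ = if j = l then gn j else 0 :=
      fun j l hj => by
        obtain ⟨a, b, c, e, f⟩ := (by decide : ∀ j : Fin 9, j.val < 7 →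
          Sp (Fin.ofNat 14 (j + 1)) ∧ (cc (Fin.ofNat 14 (j + 1)) : ℤ) = gn j ∧
          Fin.ofNat 14 (j + 1) ≠ 8 ∧ Fin.ofNat 14 (j + 1) ≠ 9 ∧
          ∀ l : Fin 9, j ≠ l → Fin.ofNat 14 (j + 1) ≠ Fin.ofNat 14 (l + 1)) j hj
        split_ifs with hl
        · rw [← hl, col_self_int _ _ (hV j hj), h.card_cent a, b]
        · exact orthV (hV j hj) c e l (f l hl)
    intro j l
    by_cases hj : j.val < 7
    · exact low j l hj
    by_cases hl : l.val < 7
    · rw [Finset.sum_congr rfl fun χ _ => mul_comm _ _, low l j hl, if_neg (by omega),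
        if_neg (by omega)]
    obtain rfl | rfl : j = 7 ∨ j = 8 := by omega
    all_goals obtain rfl | rfl : l = 7 ∨ l = 8 := by omega
    exacts [hXY.1, hXY.2.1, (Finset.sum_congr rfl fun χ _ => mul_comm _ _).trans hXY.2.1, hXY.2.2]

end Data

end CfsgLib.Exc.S4
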